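import Cfsg.Agent.H743.AH.SixFacts

/-!
# Products of two `p`-regular classes, `²E₆(q)`: the residue of type `B₃` (helper743)

* `of_plane` : `a` with minimal parabolic `PJ {0, 1}`: `VJ {0, 1} ⊓ C(a)` is trivial on the `2`-panels;
* `of_line` : `a` with minimal parabolic `PJ {1}`: for `a` or a conjugate with minimal parabolic `PJ {0}` the Sylow group of
  the centraliser is not transitive on the `2`-panel.
-/

set_option autoImplicit false
set_option linter.unusedSectionVars false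

namespace Cfsg.Agent.H743.AH.SixA

open CoxeterSystem Cfsg.Agent.ChevalleyStructure.CoxeterGeom Cfsg.Agent.Tits.Roots Cfsg.Agent.Tits.Core
  Cfsg.Agent.Tits.RootComb Cfsg.Agent.Tits.Exchange Cfsg.Agent.Nodes.Reps Cfsg.Agent.Nodes.BNOf
  Cfsg.Agent.Nodes.StabComb Cfsg.Agent.Nodes.Bruhat Cfsg.Agent.Nodes.OppDec Cfsg.Agent.Nodes.LeviDec
  Cfsg.Agent.Nodes.Coroot Cfsg.Agent.KFacts.RgdSL Cfsg.Agent.KFacts.RgdTI Cfsg.Agent.KFacts.RgdOdd
  Cfsg.Agent.KFacts.RgdEx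
  Cfsg.Agent.Nodes.RGDTwE6 Cfsg.Agent.KFacts.TwESix.Comb Cfsg.Agent.KFacts.TwESix.CombRho
  Cfsg.Agent.KFacts.TwESix.Btw Cfsg.Agent.H743.AH.SixFacts Cfsg.Agent.H743.AH.RgdPos
open scoped commutatorElement

/-! ### General lemmas -/

section Gen

variable {I W Y : Type*} [Fintype I] [DecidableEq I] [Group W] [Group Y] {M : CoxeterMatrix I}
  {cs : CoxeterSystem M W} {A : I → I → ℤ} {h : IsCartan M A} {p : ℕ} {T : Subgroup Y} {n : I → Y}
  {X : (I → ℤ) → Subgroup Y}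

theorem PJ_le_normalizer_of_B [Finite W] (R : RGD cs h p T n X) {J : Set I} {S : Set (I → ℤ)}
    (hS : ∀ x ∈ S, IsRoot cs h x) (hB : RGD.B cs h T X ≤ Subgroup.normalizer (RGD.Sup X S : Set Y))
    (hJ : ∀ w ∈ WJ cs J, ∀ y ∈ S, rep cs h w y ∈ S) :
    PJ cs h T X J ≤ Subgroup.normalizer (RGD.Sup X S : Set Y) := by
  have hk : ∀ w ∈ WJ cs J, ∀ k, Rp cs R.nsys w k → k ∈ Subgroup.normalizer (RGD.Sup X S : Set Y) := by
    have h1 : ∀ w ∈ WJ cs J, ∀ k, Rp cs R.nsys w k → cj k (RGD.Sup X S) ≤ RGD.Sup X S := fun w hw k hk =>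
      cj_Sup_le R hk (fun x hx => hS x hx) fun x hx => hJ w hw x hx
    intro w hw k hk
    rw [mem_normalizer_iff_cj]
    apply le_antisymm (h1 w hw k hk)
    have h2 := cj_mono k (h1 _ (inv_mem hw) _ hk.inv)
    rwa [cj_cj_inv] at h2
  intro g hg
  obtain ⟨w, hw, b₁, hb₁, k, hkw, b₂, hb₂, rfl⟩ := (mem_PJ_iff_cell R).1 hg
  exact mul_mem (mul_mem (hB hb₁) (hk w hw k hkw)) (hB hb₂)

/-- the commutators modulo a subgroup -/
theorem comm_mem_of_gen {S S' : Set (I → ℤ)} {N : Subgroup Y} (hN : RGD.Sup X S ≤ Subgroup.normalizer (N : Set Y))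
    (hN' : RGD.Sup X S' ≤ Subgroup.normalizer (N : Set Y))
    (hc : ∀ x ∈ S, ∀ y ∈ S', ∀ u ∈ X x, ∀ v ∈ X y, ⁅u, v⁆ ∈ N) {u v : Y} (hu : u ∈ RGD.Sup X S)
    (hv : v ∈ RGD.Sup X S') : ⁅u, v⁆ ∈ N := by
  -- `{u ∈ N(N) : ⁅u, v⁆ ∈ N}`
  let C : Y → Subgroup Y := fun v =>
    { carrier := {u | u ∈ Subgroup.normalizer (N : Set Y) ∧ ⁅u, v⁆ ∈ N}
      one_mem' := ⟨one_mem _, by rw [commutatorElement_def]; simp⟩
      mul_mem' := fun {a b} ha hb => by
        refine ⟨mul_mem ha.1 hb.1, ?_⟩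
        have e : ⁅a * b, v⁆ = (a * ⁅b, v⁆ * a⁻¹) * ⁅a, v⁆ := by
          rw [commutatorElement_def, commutatorElement_def, commutatorElement_def]; group
        rw [e]
        exact mul_mem ((Subgroup.mem_normalizer_iff.1 ha.1 _).1 hb.2) ha.2
      inv_mem' := fun {a} ha => by
        refine ⟨inv_mem ha.1, ?_⟩
        have e : ⁅a⁻¹, v⁆ = (a⁻¹ * ⁅a, v⁆ * a)⁻¹ := by
          rw [commutatorElement_def, commutatorElement_def]; group
        rw [e]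
        have h1 := (Subgroup.mem_normalizer_iff.1 (inv_mem ha.1) ⁅a, v⁆).1 ha.2
        rw [inv_inv] at h1
        exact inv_mem h1 }
  have hC : ∀ u v, u ∈ C v ↔ u ∈ Subgroup.normalizer (N : Set Y) ∧ ⁅u, v⁆ ∈ N := fun _ _ => Iff.rfl
  have h1 : ∀ x ∈ S, ∀ u ∈ X x, ∀ v ∈ RGD.Sup X S', ⁅u, v⁆ ∈ N := by
    intro x hx u hu v hv
    have h2 : RGD.Sup X S' ≤ C u := RGD.Sup_le fun y hy v hv => by
      rw [hC]
      refine ⟨hN' (RGD.le_Sup hy hv), ?_⟩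
      rw [← commutatorElement_inv]
      exact inv_mem (hc x hx y hy u hu v hv)
    have h3 := ((hC _ _).1 (h2 hv)).2
    rw [← commutatorElement_inv] at h3
    simpa using inv_mem h3
  have h2 : RGD.Sup X S ≤ C v := RGD.Sup_le fun x hx u hu => by
    rw [hC]
    exact ⟨hN (RGD.le_Sup hx hu), h1 x hx u hu v hv⟩
  exact ((hC _ _).1 (h2 hu)).2

/-- the elements of `WJ {i}` -/
theorem mem_WJ_single {i : I} {w : W} (hw : w ∈ WJ cs ({i} : Set I)) : w = 1 ∨ w = cs.simple i := by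
  have hsub : WJ cs ({i} : Set I) ≤ Subgroup.zpowers (cs.simple i) := by
    unfold WJ
    rw [Subgroup.closure_le]
    rintro _ ⟨j, hj, rfl⟩
    rw [Set.mem_singleton_iff] at hj
    subst hj
    exact Subgroup.mem_zpowers _
  have h2 : cs.simple i ^ (2 : ℤ) = 1 := by
    rw [zpow_ofNat, pow_two, cs.simple_mul_simple_self]
  obtain ⟨m, hm⟩ := Subgroup.mem_zpowers_iff.1 (hsub hw)
  rcases Int.even_or_odd' m with ⟨c, hc | hc⟩
  · left
    rw [← hm, hc, zpow_mul, h2, one_zpow]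
  · right
    rw [← hm, hc, zpow_add, zpow_mul, zpow_one, h2, one_zpow, one_mul]

/-- the double cosets of a rank one parabolic subgroup in a parabolic subgroup of type `A₂` -/
theorem mem_WJ_pair {i j : I} (hij : M i j = 3) {w : W} (hw : w ∈ WJ cs ({i, j} : Set I)) :
    w ∈ WJ cs ({i} : Set I) ∨
      ∃ x ∈ WJ cs ({i} : Set I), ∃ y ∈ WJ cs ({i} : Set I), w = x * cs.simple j * y := by
  have hi := cs.simple_mul_simple_self i
  have hj := cs.simple_mul_simple_self j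
  have hb := H330.ClassPath.braid_of_three (cs := cs) hij
  have hsi : cs.simple i ∈ WJ cs ({i} : Set I) := simple_mem_WJ cs rfl
  have key : ∀ w : W, (w ∈ WJ cs ({i} : Set I) ∨
      ∃ x ∈ WJ cs ({i} : Set I), ∃ y ∈ WJ cs ({i} : Set I), w = x * cs.simple j * y) → ∀ k ∈ ({i, j} : Set I),
      (w * cs.simple k ∈ WJ cs ({i} : Set I) ∨
      ∃ x ∈ WJ cs ({i} : Set I), ∃ y ∈ WJ cs ({i} : Set I), w * cs.simple k = x * cs.simple j * y) := by
    rintro w hw k (rfl | hk)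
    · rcases hw with hw | ⟨x, hx, y, hy, rfl⟩
      · exact Or.inl (mul_mem hw hsi)
      · exact Or.inr ⟨x, hx, y * cs.simple k, mul_mem hy hsi, by group⟩
    · rw [Set.mem_singleton_iff] at hk
      subst hk
      rcases hw with hw | ⟨x, hx, y, hy, rfl⟩
      · exact Or.inr ⟨w, hw, 1, one_mem _, by group⟩
      · rcases mem_WJ_single hy with rfl | rfl
        · left
          rw [mul_one, mul_assoc, hj, mul_one]
          exact hx
        · right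
          refine ⟨x * cs.simple i, mul_mem hx hsi, cs.simple i, hsi, ?_⟩
          calc x * cs.simple k * cs.simple i * cs.simple k = x * (cs.simple k * cs.simple i * cs.simple k) := by group
            _ = _ := by rw [← hb]; group
  have h1 : ∀ w ∈ WJ cs ({i, j} : Set I), ∀ v : W, (v ∈ WJ cs ({i} : Set I) ∨
      ∃ x ∈ WJ cs ({i} : Set I), ∃ y ∈ WJ cs ({i} : Set I), v = x * cs.simple j * y) →
      (v * w ∈ WJ cs ({i} : Set I) ∨
      ∃ x ∈ WJ cs ({i} : Set I), ∃ y ∈ WJ cs ({i} : Set I), v * w = x * cs.simple j * y) := by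
    intro w hw
    refine Subgroup.closure_induction'' (p := fun w _ => ∀ v : W, (v ∈ WJ cs ({i} : Set I) ∨
      ∃ x ∈ WJ cs ({i} : Set I), ∃ y ∈ WJ cs ({i} : Set I), v = x * cs.simple j * y) →
      (v * w ∈ WJ cs ({i} : Set I) ∨
      ∃ x ∈ WJ cs ({i} : Set I), ∃ y ∈ WJ cs ({i} : Set I), v * w = x * cs.simple j * y)) ?_ ?_ ?_ ?_ hw
    · rintro _ ⟨k, hk, rfl⟩ v hv
      exact key v hv k hk
    · rintro _ ⟨k, hk, rfl⟩ v hv
      rw [cs.inv_simple]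
      exact key v hv k hk
    · intro v hv
      rwa [mul_one]
    · intro a b _ _ ha hb v hv
      rw [← mul_assoc]
      exact hb _ (ha _ hv)
  have := h1 w hw 1 (Or.inl (one_mem _))
  rwa [one_mul] at this

theorem mem_PJ_pair [Finite W] (R : RGD cs h p T n X) {i j : I} (hij : M i j = 3) {g : Y}
    (hg : g ∈ PJ cs h T X ({i, j} : Set I)) : g ∈ PJ cs h T X ({i} : Set I) ∨
      ∃ x ∈ PJ cs h T X ({i} : Set I), ∃ y ∈ PJ cs h T X ({i} : Set I), g = x * n j * y := by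
  obtain ⟨w, hw, hcell⟩ := (mem_PJ_iff_cell R).1 hg
  rcases mem_WJ_pair hij hw with hw | ⟨x, hx, y, hy, rfl⟩
  · exact Or.inl ((mem_PJ_iff_cell R).2 ⟨w, hw, hcell⟩)
  · right
    obtain ⟨b₁, hb₁, k, hk, b₂, hb₂, rfl⟩ := hcell
    obtain ⟨kx, hkx⟩ := exists_rp cs R.nsys x
    obtain ⟨ky, hky⟩ := exists_rp cs R.nsys y
    have h1 := ((hkx.mul (rp_simple cs R.nsys j)).mul hky).unique hk
    refine ⟨b₁ * kx, mul_mem (B_le_PJ hb₁) (LJ_le_PJ (rp_mem_LJ R hx hkx)), ky * ((kx * n j * ky)⁻¹ * k) * b₂,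
      mul_mem (mul_mem (LJ_le_PJ (rp_mem_LJ R hy hky)) (B_le_PJ (RGD.T_le_B h1))) (B_le_PJ hb₂), by group⟩

end Gen

/-! ### The positive roots of `F₄` -/

/-- the positive roots -/
def prts : List (Fin 4 → ℤ) := rts.take 24

theorem prts_sub : ∀ x ∈ prts, x ∈ rts ∧ ∀ i, 0 ≤ x i := by decide +kernel
theorem mem_prts : ∀ x ∈ rts, (∀ i, 0 ≤ x i) → x ∈ prts := by decide +kernel

def e4 : Fin 4 → ℤ := ![0, 0, 1, 0]
def e3 : Fin 4 → ℤ := ![0, 1, 1, 0]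
def e2 : Fin 4 → ℤ := ![1, 1, 1, 0]
/-- `α₀ + α₁` -/
def a01 : Fin 4 → ℤ := ![1, 1, 0, 0]

/-- the positive roots outside of the residue of type `{0, 1}` -/
def L0 : List (Fin 4 → ℤ) := prts.filter fun x => 0 < x 2 ∨ 0 < x 3
def L1 : List (Fin 4 → ℤ) := L0.filter (· ≠ e4)
def L2 : List (Fin 4 → ℤ) := L1.filter (· ≠ e3)
def L3 : List (Fin 4 → ℤ) := L2.filter (· ≠ e2)
/-- `L0` without `e3` -/
def L1' : List (Fin 4 → ℤ) := L0.filter (· ≠ e3)
/-- `s₀ L2` -/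
def L2' : List (Fin 4 → ℤ) := L1.filter (· ≠ e2)

/-- the set of a list -/
abbrev st (L : List (Fin 4 → ℤ)) : Set (Fin 4 → ℤ) := {x | x ∈ L}

variable {W Y : Type*} [Group W] [Group Y] {cs : CoxeterSystem CoxeterMatrix.F₄ W} {p : ℕ} {T : Subgroup Y}
  {n : Fin 4 → Y} {X : (Fin 4 → ℤ) → Subgroup Y}

theorem mem_pos {x : Fin 4 → ℤ} : x ∈ RGD.Pos cs isCartan ↔ x ∈ prts :=
  ⟨fun hx => mem_prts x ((mem_rts cs).1 hx.1) hx.2, fun hx => ⟨(mem_rts cs).2 (prts_sub x hx).1, (prts_sub x hx).2⟩⟩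

theorem st_pos {L : List (Fin 4 → ℤ)} (hL : ∀ x ∈ L, x ∈ prts) : st L ⊆ RGD.Pos cs isCartan :=
  fun x hx => mem_pos.2 (hL x hx)

theorem closed_st {L : List (Fin 4 → ℤ)} (hL : ∀ x ∈ L, x ∈ prts)
    (hc : ∀ x ∈ L, ∀ y ∈ L, ∀ z ∈ rts, bt x y z → z ∈ L) : Nodes.Unique.Closed cs isCartan (st L) := by
  intro x hx y hy z hz
  have hxr := (st_pos (cs := cs) hL hx)
  have hyr := (st_pos (cs := cs) hL hy)
  by_cases hxy : x = y
  · subst hxy
    have := Nodes.Unique.btwn_self hxr.1 hz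
    rw [this]; exact hx
  · obtain ⟨h1, h2⟩ := btwn_spec cs hxr.1 hyr.1 hxy (by
      rintro rfl
      have h1 : y = 0 := le_antisymm (neg_nonneg.1 hxr.2) hyr.2
      exact hyr.1.ne_zero h1) hz
    exact hc x hx y hy z h1 h2

section Lr

variable (R : RGD cs isCartan p T n X) (lr : ∀ a, IsRoot cs isCartan a → bf a a = 4 → LR R a)

/-- the condition under which the commutators of `X x`, `X y` lie in `Sup X L` -/
abbrev Ok (x y : Fin 4 → ℤ) (L : List (Fin 4 → ℤ)) : Prop :=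
  x ≠ -y ∧ ((∀ z ∈ rts, bt x y z → z ∈ L) ∨ (0 ≤ bf x y ∧ (bf y y = 4 ∨ bf x x = 4)))

include lr

theorem comm_ok {x y : Fin 4 → ℤ} (hx : x ∈ rts) (hy : y ∈ rts) (hxy : x ≠ y) {L : List (Fin 4 → ℤ)} (ho : Ok x y L)
    {u v : Y} (hu : u ∈ X x) (hv : v ∈ X y) : ⁅u, v⁆ ∈ RGD.Sup X (st L) := by
  have hx' := (mem_rts cs).2 hx
  have hy' := (mem_rts cs).2 hy
  obtain ⟨h0, h1 | ⟨h1, h2⟩⟩ := ho
  · have h2 := R.comm x y hx' hy' hxy h0 u hu v hv
    have h3 : btw cs isCartan X x y ≤ RGD.Sup X (st L) := by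
      refine iSup_le fun z => ?_
      obtain ⟨h4, h5⟩ := btwn_spec cs hx' hy' hxy h0 z.2
      exact RGD.le_Sup (S := st L) (h1 _ h4 h5)
    exact h3 h2
  · have h3 : u * v = v * u := by
      rcases h2 with h2 | h2
      · exact long_comm R lr hx' hy' h2 h1 hu hv
      · exact (long_comm R lr hy' hx' h2 (by rw [bf_comm]; exact h1) hv hu).symm
    rw [commutatorElement_eq_one_iff_mul_comm.2 h3]
    exact one_mem _

theorem X_le_norm {x : Fin 4 → ℤ} (hx : x ∈ rts) {L : List (Fin 4 → ℤ)} (hL : ∀ y ∈ L, y ∈ rts)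
    (habs : ∀ y ∈ L, x = y ∨ Ok x y L) : X x ≤ Subgroup.normalizer (RGD.Sup X (st L) : Set Y) := by
  have key : ∀ a ∈ X x, cj a (RGD.Sup X (st L)) ≤ RGD.Sup X (st L) := by
    intro a ha
    rw [RGD.cj_Sup]
    refine iSup_le ?_
    rintro ⟨y, hy⟩ c hc
    rw [mem_cj] at hc
    rcases habs y hy with rfl | ho
    · have e : c = a * (a⁻¹ * c * a) * a⁻¹ := by group
      rw [e]
      exact RGD.le_Sup (S := st L) hy (mul_mem (mul_mem ha hc) (inv_mem ha))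
    · by_cases hxy : x = y
      · subst hxy
        have e : c = a * (a⁻¹ * c * a) * a⁻¹ := by group
        rw [e]
        exact RGD.le_Sup (S := st L) hy (mul_mem (mul_mem ha hc) (inv_mem ha))
      have h1 := comm_ok R lr hx (hL y hy) hxy ho ha hc
      have e : c = ⁅a, a⁻¹ * c * a⁆ * (a⁻¹ * c * a) := by rw [commutatorElement_def]; group
      rw [e]
      exact mul_mem h1 (RGD.le_Sup (S := st L) hy hc)
  intro a ha
  rw [mem_normalizer_iff_cj]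
  apply le_antisymm (key a ha)
  have h1 := cj_mono a (key a⁻¹ (inv_mem ha))
  rwa [cj_cj_inv] at h1

theorem PJ_norm {J : Set (Fin 4)} {L : List (Fin 4 → ℤ)} (hL : ∀ y ∈ L, y ∈ rts)
    (habs : ∀ x ∈ prts, ∀ y ∈ L, x = y ∨ Ok x y L)
    (hJ : ∀ i ∈ J, ∀ y ∈ L, Cfsg.Agent.Nodes.RGDFold.refl A i y ∈ L) :
    PJ cs isCartan T X J ≤ Subgroup.normalizer (RGD.Sup X (st L) : Set Y) := by
  have : Finite W := finiteW cs
  refine PJ_le_normalizer_of_B R (fun x hx => (mem_rts cs).2 (hL x hx)) ?_ ?_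
  · refine sup_le (R.T_le_normalizer fun _ hx => (mem_rts cs).2 (hL _ hx)) (RGD.Sup_le fun x hx => ?_)
    have hx' := mem_pos.1 hx
    exact X_le_norm R lr (prts_sub x hx').1 hL (habs x hx')
  · refine rep_mem_of_simple fun i hi y hy => ?_
    rw [rep_simple_refl]
    exact hJ i hi y hy

end Lr

/-! ### The tables -/

theorem L0_sub : ∀ x ∈ L0, x ∈ prts := by decide +kernel
theorem L1_sub : ∀ x ∈ L1, x ∈ L0 := by decide +kernel
theorem L2_sub : ∀ x ∈ L2, x ∈ L1 := by decide +kernel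
theorem L3_sub : ∀ x ∈ L3, x ∈ L2 := by decide +kernel
theorem L1'_sub : ∀ x ∈ L1', x ∈ L0 := by decide +kernel
theorem L2'_sub : ∀ x ∈ L2', x ∈ L1 := by decide +kernel

theorem bt_L0 : ∀ x ∈ L0, ∀ y ∈ L0, ∀ z ∈ rts, bt x y z → z ∈ L3 := by decide +kernel

theorem abs0 : ∀ x ∈ prts, ∀ y ∈ L0, x = y ∨ Ok x y L0 := by decide +kernel
theorem abs1 : ∀ x ∈ prts, ∀ y ∈ L1, x = y ∨ Ok x y L1 := by decide +kernel
theorem abs2 : ∀ x ∈ prts, ∀ y ∈ L2, x = y ∨ Ok x y L2 := by decide +kernel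
theorem abs3 : ∀ x ∈ prts, ∀ y ∈ L3, x = y ∨ Ok x y L3 := by decide +kernel

theorem ok_Q2 : ∀ x ∈ [sr 0, a01], ∀ y ∈ L0, x ≠ y ∧ Ok x y L2 := by decide +kernel
theorem ok_a3 : ∀ y ∈ L1, a01 ≠ y ∧ Ok a01 y L3 := by decide +kernel

theorem inv0 : ∀ i ∈ [(0 : Fin 4), 1], ∀ y ∈ L0, Cfsg.Agent.Nodes.RGDFold.refl A i y ∈ L0 := by decide +kernel
theorem inv1 : ∀ i ∈ [(0 : Fin 4)], ∀ y ∈ L1, Cfsg.Agent.Nodes.RGDFold.refl A i y ∈ L1 := by decide +kernel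
theorem inv2 : ∀ i ∈ [(1 : Fin 4)], ∀ y ∈ L2, Cfsg.Agent.Nodes.RGDFold.refl A i y ∈ L2 := by decide +kernel
theorem inv3 : ∀ i ∈ [(0 : Fin 4), 1], ∀ y ∈ L3, Cfsg.Agent.Nodes.RGDFold.refl A i y ∈ L3 := by decide +kernel

end Cfsg.Agent.H743.AH.SixA
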