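import Cfsg.Agent.H743.AH.SixB

/-!
# Products of two `p`-regular classes, `²E₆(q)`: minimal parabolic of type `{1}` (helper743)

`of_line` : if `a ∈ LJ {1}` has minimal parabolic `PJ {1}` then either `VJ {1} ⊓ C(a)` does not map onto `X (sr 2)`, or the
same holds for a conjugate with minimal parabolic `PJ {0}`.
-/

set_option autoImplicit false
set_option linter.unusedSectionVars false

namespace Cfsg.Agent.H743.AH.SixC

open CoxeterSystem Cfsg.Agent.ChevalleyStructure.CoxeterGeom Cfsg.Agent.Tits.Roots Cfsg.Agent.Tits.Core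
  Cfsg.Agent.Tits.RootComb Cfsg.Agent.Tits.Exchange Cfsg.Agent.Nodes.Reps Cfsg.Agent.Nodes.BNOf
  Cfsg.Agent.Nodes.StabComb Cfsg.Agent.Nodes.Bruhat Cfsg.Agent.Nodes.OppDec Cfsg.Agent.Nodes.LeviDec
  Cfsg.Agent.Nodes.Coroot Cfsg.Agent.KFacts.RgdSL Cfsg.Agent.KFacts.RgdTI Cfsg.Agent.KFacts.RgdOdd
  Cfsg.Agent.KFacts.RgdEx
  Cfsg.Agent.Nodes.RGDTwE6 Cfsg.Agent.KFacts.TwESix.Comb Cfsg.Agent.KFacts.TwESix.CombRho
  Cfsg.Agent.KFacts.TwESix.Btw Cfsg.Agent.H743.AH.SixFacts Cfsg.Agent.H743.AH.RgdPos Cfsg.Agent.H743.AH.SixA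
  Cfsg.Agent.H743.AH.SixB
open scoped commutatorElement

/-! ### Tables -/

/-- the positive roots other than `α₁` -/
def M0 : List (Fin 4 → ℤ) := prts.filter (· ≠ sr 1)
def M1 : List (Fin 4 → ℤ) := M0.filter (· ≠ e4)
def M2 : List (Fin 4 → ℤ) := M1.filter (· ≠ e3)
/-- `α₁ + 2 α₂` -/
def l1 : Fin 4 → ℤ := ![0, 1, 2, 0]
def M3 : List (Fin 4 → ℤ) := M2.filter (· ≠ l1)
/-- the radical in the residue of type `{1, 2}` -/
def E : List (Fin 4 → ℤ) := [e4, e3, l1]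
/-- the positive roots other than `α₀` -/
def N0 : List (Fin 4 → ℤ) := prts.filter (· ≠ sr 0)
def N1 : List (Fin 4 → ℤ) := N0.filter (· ≠ e4)
/-- the positive roots other than `α₂` -/
def N2 : List (Fin 4 → ℤ) := prts.filter (· ≠ e4)

theorem M0_sub : ∀ x ∈ M0, x ∈ prts := by decide +kernel
theorem M1_sub : ∀ x ∈ M1, x ∈ prts := by decide +kernel
theorem M2_sub : ∀ x ∈ M2, x ∈ prts := by decide +kernel
theorem M3_sub : ∀ x ∈ M3, x ∈ prts := by decide +kernel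
theorem E_sub : ∀ x ∈ E, x ∈ prts := by decide +kernel
theorem N0_sub : ∀ x ∈ N0, x ∈ prts := by decide +kernel
theorem N1_sub : ∀ x ∈ N1, x ∈ prts := by decide +kernel
theorem N2_sub : ∀ x ∈ N2, x ∈ prts := by decide +kernel

theorem cM0 : ∀ x ∈ M0, ∀ y ∈ M0, ∀ z ∈ rts, bt x y z → z ∈ M0 := by decide +kernel
theorem cM1 : ∀ x ∈ M1, ∀ y ∈ M1, ∀ z ∈ rts, bt x y z → z ∈ M1 := by decide +kernel
theorem cM2 : ∀ x ∈ M2, ∀ y ∈ M2, ∀ z ∈ rts, bt x y z → z ∈ M2 := by decide +kernel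
theorem cM3 : ∀ x ∈ M3, ∀ y ∈ M3, ∀ z ∈ rts, bt x y z → z ∈ M3 := by decide +kernel
theorem cE : ∀ x ∈ E, ∀ y ∈ E, ∀ z ∈ rts, bt x y z → z ∈ E := by decide +kernel
theorem cN0 : ∀ x ∈ N0, ∀ y ∈ N0, ∀ z ∈ rts, bt x y z → z ∈ N0 := by decide +kernel
theorem cN1 : ∀ x ∈ N1, ∀ y ∈ N1, ∀ z ∈ rts, bt x y z → z ∈ N1 := by decide +kernel
theorem cN2 : ∀ x ∈ N2, ∀ y ∈ N2, ∀ z ∈ rts, bt x y z → z ∈ N2 := by decide +kernel

theorem okM3 : ∀ x ∈ [(sr 1 : Fin 4 → ℤ), -sr 1], ∀ y ∈ M3, x = y ∨ Ok x y M3 := by decide +kernel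
theorem okE : ∀ x ∈ [(sr 1 : Fin 4 → ℤ), -sr 1], ∀ y ∈ E, x = y ∨ Ok x y E := by decide +kernel
theorem okN1 : ∀ x ∈ [(sr 0 : Fin 4 → ℤ), -sr 0], ∀ y ∈ N1, x = y ∨ Ok x y N1 := by decide +kernel
theorem ok4 : ∀ x ∈ [(sr 0 : Fin 4 → ℤ), -sr 0], ∀ y ∈ [e4], x = y ∨ Ok x y [e4] := by decide +kernel

theorem disjE : ∀ x ∈ E, x ∉ M3 := by decide +kernel
theorem interN : ∀ x ∈ N0, x ∈ N2 → x ∈ N1 := by decide +kernel
theorem e4_N1 : e4 ∉ N1 := by decide +kernel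

theorem l1_mem : l1 ∈ rts ∧ bf l1 l1 = 4 ∧ 0 ≤ bf e2 l1 ∧ l1 ∈ M2 := by decide +kernel
theorem e_M : e4 ∈ M0 ∧ e3 ∈ M1 ∧ e4 ∈ N0 := by decide +kernel
theorem pair_e : bf e4 e2 = 0 ∧ bf e3 e2 = 0 ∧ e4 + e2 ∈ rts ∧ e3 + e2 ∈ rts ∧ bf (e4 + e2) (e4 + e2) = 4 ∧
    bf (e3 + e2) (e3 + e2) = 4 ∧ 0 ≤ bf e4 (e3 + e2) ∧ 0 ≤ bf (e4 + e2) (e3 + e2) ∧ e3 + e2 = e4 + e2 + sr 1 ∧
    bf (e4 + e2) (e4 + e2) = bf (sr 1) (sr 1) ∧ 2 * bf (e4 + e2) (sr 1) = - bf (e4 + e2) (e4 + e2) ∧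
    e4 + e2 ≠ e3 + e2 := by decide +kernel
theorem refl_a1 : Cfsg.Agent.Nodes.RGDFold.refl A 1 (Cfsg.Agent.Nodes.RGDFold.refl A 0 (sr 1)) = sr 0 ∧
    Cfsg.Agent.Nodes.RGDFold.refl A 1 (Cfsg.Agent.Nodes.RGDFold.refl A 0 e2) = e4 := by decide +kernel

variable {W Y : Type*} [Group W] [Group Y] {cs : CoxeterSystem CoxeterMatrix.F₄ W} {p : ℕ} {T : Subgroup Y}
  {n : Fin 4 → Y} {X : (Fin 4 → ℤ) → Subgroup Y}

theorem RootsJ_single {i : Fin 4} {x : Fin 4 → ℤ} (hx : x ∈ RootsJ cs isCartan ({i} : Set (Fin 4))) :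
    x ∈ [(sr i : Fin 4 → ℤ), -sr i] := by
  obtain ⟨c, hc⟩ : ∃ c : ℤ, x = c • sr i := by
    refine ⟨x i, funext fun j => ?_⟩
    by_cases hj : j = i
    · subst hj; rw [Pi.smul_apply, sr_self, smul_eq_mul, mul_one]
    · rw [hx.2 j hj, Pi.smul_apply, sr_ne hj, smul_zero]
  have hu := isUnit_of_smul cs isCartan hx.1 c hc
  rw [Int.isUnit_iff] at hu
  rcases hu with rfl | rfl
  · rw [hc, one_smul]; simp
  · rw [hc, neg_one_smul]; simp

theorem NotJ_1 : NotJ cs isCartan ({1} : Set (Fin 4)) ⊆ st M0 := by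
  rintro x ⟨hx, h0, k, hk, hk0⟩
  refine List.mem_filter.2 ⟨mem_pos.1 ⟨hx, h0⟩, decide_eq_true ?_⟩
  rintro rfl
  rw [sr_ne hk] at hk0
  exact absurd hk0 (lt_irrefl _)

theorem NotJ_0 : NotJ cs isCartan ({0} : Set (Fin 4)) ⊆ st N0 := by
  rintro x ⟨hx, h0, k, hk, hk0⟩
  refine List.mem_filter.2 ⟨mem_pos.1 ⟨hx, h0⟩, decide_eq_true ?_⟩
  rintro rfl
  rw [sr_ne hk] at hk0
  exact absurd hk0 (lt_irrefl _)

theorem PosNe_2 : RGD.PosNe cs isCartan 2 ⊆ st N2 := by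
  rintro x ⟨hx, h0, h1⟩
  refine List.mem_filter.2 ⟨mem_pos.1 ⟨hx, h0⟩, decide_eq_true ?_⟩
  rw [e4_mem.2.1]
  exact h1

section

variable (R : RGD cs isCartan p T n X) (lr : ∀ a, IsRoot cs isCartan a → bf a a = 4 → LR R a)

include R lr

theorem LJ_norm {i : Fin 4} {L : List (Fin 4 → ℤ)} (hL : ∀ y ∈ L, y ∈ rts)
    (habs : ∀ x ∈ [(sr i : Fin 4 → ℤ), -sr i], ∀ y ∈ L, x = y ∨ Ok x y L) {g v : Y}
    (hg : g ∈ LJ cs isCartan T X ({i} : Set (Fin 4))) (hv : v ∈ RGD.Sup X (st L)) :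
    g * v * g⁻¹ ∈ RGD.Sup X (st L) := by
  have : Finite W := finiteW cs
  have h1 : LJ cs isCartan T X ({i} : Set (Fin 4)) ≤ Subgroup.normalizer (RGD.Sup X (st L) : Set Y) := by
    refine sup_le (R.T_le_normalizer fun _ hx => (mem_rts cs).2 (hL _ hx)) (RGD.Sup_le fun x hx => ?_)
    exact X_le_norm R lr ((mem_rts cs).1 hx.1) hL (habs x (RootsJ_single hx))
  exact (Subgroup.mem_normalizer_iff.1 (h1 hg) v).1 hv

/-- an element of a direct product commuting with a product commutes with the factors -/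
theorem comm_fst {L L' : List (Fin 4 → ℤ)} (hL : ∀ x ∈ L, x ∈ prts) (hL' : ∀ x ∈ L', x ∈ prts)
    (hc : ∀ x ∈ L, ∀ y ∈ L, ∀ z ∈ rts, bt x y z → z ∈ L) (hc' : ∀ x ∈ L', ∀ y ∈ L', ∀ z ∈ rts, bt x y z → z ∈ L')
    (hd : ∀ x ∈ L, x ∉ L') {a u v : Y} (hu : u ∈ RGD.Sup X (st L)) (hv : v ∈ RGD.Sup X (st L'))
    (hau : a * u * a⁻¹ ∈ RGD.Sup X (st L)) (hav : a * v * a⁻¹ ∈ RGD.Sup X (st L'))
    (h : (u * v) * a = a * (u * v)) : u * a = a * u := by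
  have : Finite W := finiteW cs
  have h1 : (a * u * a⁻¹) * (a * v * a⁻¹) = u * v := by
    calc (a * u * a⁻¹) * (a * v * a⁻¹) = (a * (u * v)) * a⁻¹ := by group
      _ = _ := by rw [← h]; group
  have h2 : u⁻¹ * (a * u * a⁻¹) = v * (a * v * a⁻¹)⁻¹ := by
    calc u⁻¹ * (a * u * a⁻¹) = u⁻¹ * ((a * u * a⁻¹) * (a * v * a⁻¹)) * (a * v * a⁻¹)⁻¹ := by group
      _ = _ := by rw [h1]; group
  have h3 : u⁻¹ * (a * u * a⁻¹) ∈ RGD.Sup X (st L ∩ st L') := by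
    rw [← Nodes.Unique.inf_eq R (st_pos hL) (st_pos hL') (closed_st hL hc) (closed_st hL' hc')]
    have h6 : u⁻¹ * (a * u * a⁻¹) ∈ RGD.Sup X (st L) :=
      (RGD.Sup X (st L)).mul_mem ((RGD.Sup X (st L)).inv_mem hu) hau
    have h7 : u⁻¹ * (a * u * a⁻¹) ∈ RGD.Sup X (st L') := by
      rw [h2]
      exact (RGD.Sup X (st L')).mul_mem hv ((RGD.Sup X (st L')).inv_mem hav)
    exact ⟨h6, h7⟩
  have h4 : RGD.Sup X (st L ∩ st L') ≤ ⊥ := by
    refine RGD.Sup_le ?_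
    rintro z ⟨h5, h6⟩
    exact absurd h6 (hd z h5)
  have h5 := Subgroup.mem_bot.1 (h4 h3)
  rw [inv_mul_eq_one] at h5
  calc u * a = (a * u * a⁻¹) * a := by rw [← h5]
    _ = a * u := by group

/-- **Minimal parabolic of type `{1}`.** -/
theorem of_line [Finite Y] (hcard : Nat.card (X (sr 0)) < Nat.card (X (sr 3))) {a : Y}
    (haL : a ∈ LJ cs isCartan T X ({1} : Set (Fin 4))) (hm : GMin cs isCartan T X a {1})
    (h1 : ∀ x ∈ X (sr 2), ∃ u ∈ VJ cs isCartan X (({1} : Finset (Fin 4)) : Set (Fin 4)), u * a = a * u ∧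
      ∃ v ∈ RGD.Sup X (RGD.PosNe cs isCartan 2), u = x * v)
    (h0 : ∀ g : Y, GMin cs isCartan T X (g * a * g⁻¹) {0} → ∀ x ∈ X (sr 2),
      ∃ u ∈ VJ cs isCartan X (({0} : Finset (Fin 4)) : Set (Fin 4)), u * (g * a * g⁻¹) = (g * a * g⁻¹) * u ∧
      ∃ v ∈ RGD.Sup X (RGD.PosNe cs isCartan 2), u = x * v) : False := by
  have hW : Finite W := finiteW cs
  obtain ⟨h4a, h4b, h4c, h4d⟩ := e4_mem
  obtain ⟨h3a, h3b, h3c⟩ := e3_mem
  obtain ⟨h2a, h2b, h2c, h2d⟩ := e2_mem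
  obtain ⟨hl1, hl2, hl3, hl4⟩ := l1_mem
  obtain ⟨q1, q2, q3, q4, q5, q6, q7, q8, q9, q10, q11, q12⟩ := pair_e
  have hr4 := (mem_rts cs).2 h4c
  have hr3 := (mem_rts cs).2 h3b
  have hr2 := (mem_rts cs).2 h2b
  have hrl := (mem_rts cs).2 hl1
  have hr42 := (mem_rts cs).2 q3
  have hr32 := (mem_rts cs).2 q4
  rw [Finset.coe_singleton] at h1
  rw [← h4b] at h1
  -- the first position: `a` centralises `X e2`
  have hk : Rp cs R.nsys (cs.simple 1 * cs.simple 0) (n 1 * n 0) :=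
    (rp_simple cs R.nsys 1).mul (rp_simple cs R.nsys 0)
  set k : Y := n 1 * n 0 with hkdef
  have hkL : k * a * k⁻¹ ∈ LJ cs isCartan T X ({0} : Set (Fin 4)) := by
    refine conj_mem_LJ R hk (J := {1}) (fun x hx => ?_) haL
    have h3 : rep cs isCartan (cs.simple 1 * cs.simple 0) (sr 1) = sr 0 := by
      rw [rep_mul_apply, rep_simple_refl, rep_simple_refl, refl_a1.1]
    have h4 : (sr 0 : Fin 4 → ℤ) ∈ RootsJ cs isCartan ({0} : Set (Fin 4)) :=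
      PosJ_subset _ (sr_mem_PosJ (Set.mem_singleton 0))
    rcases List.mem_cons.1 (RootsJ_single hx) with rfl | h2
    · rw [h3]; exact h4
    · rw [List.mem_singleton] at h2
      rw [h2, map_neg, h3]
      exact RootsJ.neg h4
  have hgm : GMin cs isCartan T X (k * a * k⁻¹) {0} := hm.conj (by
    rw [Finset.coe_singleton]; exact LJ_le_PJ hkL) rfl
  have hcen : ∀ g ∈ X e2, g * a = a * g := by
    intro g hg
    set a0 := k * a * k⁻¹ with ha0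
    have hg0 : k * g * k⁻¹ ∈ X e4 := by
      have := R.conj_mem hk hr2 hg
      rwa [rep_mul_apply, rep_simple_refl, rep_simple_refl, refl_a1.2] at this
    set g0 := k * g * k⁻¹ with hg0'
    obtain ⟨u, hu, hua, v, hv, e⟩ := h0 k hgm g0 (by rw [← h4b]; exact hg0)
    rw [Finset.coe_singleton] at hu
    have hu' : u ∈ RGD.Sup X (st N0) := RGD.Sup_mono NotJ_0 hu
    have hv' : v ∈ RGD.Sup X (st N1) := by
      have hv2 : v ∈ RGD.Sup X (st N2) := RGD.Sup_mono PosNe_2 hv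
      have hv0 : v ∈ RGD.Sup X (st N0) := by
        have : v = g0⁻¹ * u := by rw [e]; group
        rw [this]
        exact mul_mem (inv_mem (RGD.le_Sup (S := st N0) e_M.2.2 hg0)) hu'
      have h5 : v ∈ RGD.Sup X (st N0 ∩ st N2) := by
        rw [← Nodes.Unique.inf_eq R (st_pos N0_sub) (st_pos N2_sub) (closed_st N0_sub cN0) (closed_st N2_sub cN2)]
        exact ⟨hv0, hv2⟩
      exact RGD.Sup_mono (S' := st N1) (fun z hz => interN z hz.1 hz.2) h5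
    have hg0s : g0 ∈ RGD.Sup X (st [e4]) := RGD.le_Sup (S := st [e4]) (by simp [st]) hg0
    have h6 : g0 * a0 = a0 * g0 := by
      refine comm_fst R lr (L := [e4]) (L' := N1) (by decide +kernel) N1_sub (by decide +kernel) cN1 (by
        decide +kernel) hg0s hv' (LJ_norm R lr (by decide +kernel) ok4 hkL hg0s)
        (LJ_norm R lr (fun y hy => (prts_sub y (N1_sub y hy)).1) okN1 hkL hv') ?_
      rw [← e]
      exact hua
    calc g * a = k⁻¹ * (g0 * a0) * k := by rw [hg0', ha0]; group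
      _ = k⁻¹ * (a0 * g0) * k := by rw [h6]
      _ = a * g := by rw [hg0', ha0]; group
  -- the second position: an element `e` of `X e4 * X e3 * X l1` centralised by `a`
  obtain ⟨x, hx, hx1⟩ := SixFacts.exists_ne_one R hr4
  obtain ⟨u, hu, hua, v, hv, huv⟩ := h1 x hx
  have hu0 : u ∈ RGD.Sup X (st M0) := RGD.Sup_mono NotJ_1 hu
  obtain ⟨x4, hx4, m1, hm1, e1⟩ := (Nodes.Unique.mem_peel R (st_pos M0_sub) (closed_st M0_sub cM0) e_M.1).1 hu0
  rw [st_diff] at hm1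
  have hxx : x4 = x := by
    have h5 : x⁻¹ * x4 ∈ RGD.Sup X (RGD.PosNe cs isCartan 2) := by
      have h6 : x⁻¹ * x4 = v * m1⁻¹ := by
        have : x4 = u * m1⁻¹ := by rw [e1]; group
        rw [this, huv]; group
      rw [h6]
      refine mul_mem hv (inv_mem (RGD.Sup_mono (fun z hz => ?_) hm1))
      have h7 := (mem_pos (cs := cs)).2 (M1_sub z hz)
      refine ⟨h7.1, h7.2, ?_⟩
      rw [← h4b]
      exact of_decide_eq_true (List.mem_filter.1 hz).2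
    have h6 := eq_one_of_mem_PosNe R (i := 2) (by rw [← h4b]; exact mul_mem (inv_mem hx) hx4) h5
    rw [inv_mul_eq_one] at h6
    exact h6.symm
  subst hxx
  obtain ⟨x3, hx3, m2, hm2, e2'⟩ := (Nodes.Unique.mem_peel R (st_pos M1_sub) (closed_st M1_sub cM1) e_M.2.1).1 hm1
  rw [st_diff] at hm2
  obtain ⟨y, hy, m3, hm3, e3'⟩ := (Nodes.Unique.mem_peel R (st_pos M2_sub) (closed_st M2_sub cM2) hl4).1 hm2
  rw [st_diff] at hm3
  set e := x4 * x3 * y with he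
  have heE : e ∈ RGD.Sup X (st E) :=
    mul_mem (mul_mem (RGD.le_Sup (S := st E) (by decide +kernel : e4 ∈ E) hx4)
      (RGD.le_Sup (S := st E) (by decide +kernel : e3 ∈ E) hx3)) (RGD.le_Sup (S := st E) (by decide +kernel : l1 ∈ E) hy)
  have hea : e * a = a * e := by
    refine comm_fst R lr (L := E) (L' := M3) E_sub M3_sub cE cM3 disjE heE hm3
      (LJ_norm R lr (fun y hy => (prts_sub y (E_sub y hy)).1) okE haL heE)
      (LJ_norm R lr (fun y hy => (prts_sub y (M3_sub y hy)).1) okM3 haL hm3) ?_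
    have e5 : e * m3 = u := by rw [he, e1, e2', e3']; group
    rw [e5]
    exact hua
  -- the commutator
  obtain ⟨g, hg, hne⟩ := orth_nd R lr hcard hr4 hr2 h4d h2c q1 hx hx1
  have hga := hcen g hg
  set r := ⁅x4, g⁆ with hr
  set s := ⁅x3, g⁆ with hs
  have hrm : r ∈ X (e4 + e2) := SixFacts.orth_mem R hr4 hr2 h4d h2c q1 hx4 hg
  have hsm : s ∈ X (e3 + e2) := SixFacts.orth_mem R hr3 hr2 h3c h2c q2 hx3 hg
  have hr1 : r ≠ 1 := fun h5 => hne (commutatorElement_eq_one_iff_mul_comm.1 h5)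
  have hyg : g * y = y * g := long_comm R lr hr2 hrl hl2 hl3 hg hy
  have hxs : x4 * s = s * x4 := long_comm R lr hr4 hr32 q6 q7 hx4 hsm
  have hrs : r * s = s * r := long_comm R lr hr42 hr32 q6 q8 hrm hsm
  have hd : ⁅e, g⁆ = r * s := by
    have k1 : ⁅e, g⁆ = x4 * s * x4⁻¹ * r := by
      have k2 : y * g * y⁻¹ = g := by rw [← hyg]; group
      calc ⁅e, g⁆ = x4 * x3 * (y * g * y⁻¹) * x3⁻¹ * x4⁻¹ * g⁻¹ := by rw [he, commutatorElement_def]; group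
        _ = x4 * x3 * g * x3⁻¹ * x4⁻¹ * g⁻¹ := by rw [k2]
        _ = _ := by rw [hs, hr, commutatorElement_def, commutatorElement_def]; group
    rw [k1, hxs, hrs]; group
  have hda : a * (r * s) = (r * s) * a := by
    rw [← hd]
    have c1 : Commute a e := hea.symm
    have c2 : Commute a g := hga.symm
    rw [commutatorElement_def]
    exact (((c1.mul_right c2).mul_right c1.inv_right).mul_right c2.inv_right).eq
  -- the natural module
  have hA : A2 cs isCartan (e4 + e2) (sr 1) := a2 cs hr42 ((mem_rts cs).2 sr01.2.1) q10 q11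
  obtain ⟨g1, hg1, hg2⟩ := nat_mod R hA hrm (s := s) (by rw [← q9]; exact hsm)
  have hrs1 : r * s ≠ 1 := by
    intro h5
    have h6 : r ∈ X (e4 + e2) ⊓ X (e3 + e2) := by
      refine ⟨hrm, ?_⟩
      rw [mul_eq_one_iff_eq_inv.1 h5]
      exact (X (e3 + e2)).inv_mem hsm
    rw [X_inf_X R hr42 hr32 q12, Subgroup.mem_bot] at h6
    exact hr1 h6
  have hB := mem_B_of_nat R hA hg2 (by
    intro h5
    apply hrs1
    have : r * s = g1⁻¹ * (g1 * (r * s) * g1⁻¹) * g1 := by group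
    rw [this, h5]; group) (a := g1 * a * g1⁻¹) (mul_mem (mul_mem hg1 haL) (inv_mem hg1)) (by
    calc g1 * a * g1⁻¹ * (g1 * (r * s) * g1⁻¹) = g1 * (a * (r * s)) * g1⁻¹ := by group
      _ = g1 * ((r * s) * a) * g1⁻¹ := by rw [hda]
      _ = _ := by group)
  have h5 := hm.min g1⁻¹ ∅ (by rw [inv_inv]; exact B_le_PJ hB)
  exact absurd h5 (by decide)

end

end Cfsg.Agent.H743.AH.SixC
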