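import Cfsg.Agent.H743.AH.SixC

/-!
# Products of two `p`-regular classes, `²E₆(q)`: the assembly (helper743)

`R : RGD cs isCartan p T n X` of type `F₄` (nodes `0, 1` long, `2, 3` short) with `|X (sr 2)| = |X (sr 0)|²`.

* `tor_eq_one` : an element of the torus all of whose conjugates under `N` centralise `X (sr 3)` is `1`;
* `dt_empty`, `dp_line`, `dt_plane` : minimal parabolics of type `∅`; `{0}`, `{1}`; `{0, 1}`;
* `notA_rgd`.
-/

set_option autoImplicit false
set_option linter.unusedSectionVars false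

namespace Cfsg.Agent.H743.AH.SixD

open CoxeterSystem Cfsg.Agent.ChevalleyStructure.CoxeterGeom Cfsg.Agent.Tits.Roots Cfsg.Agent.Tits.Core
  Cfsg.Agent.Tits.RootComb Cfsg.Agent.Nodes.Comb Cfsg.Agent.Nodes.Reps Cfsg.Agent.Nodes.BNOf Cfsg.Agent.Nodes.BNOf.RGD
  Cfsg.Agent.FixBN Cfsg.Agent.Tits.OfBN Cfsg.Agent.Tits.OppRes Cfsg.Agent.LieExceptional.BNPairCore
  Cfsg.Agent.OddHalf.Table.AutBldg Cfsg.Agent.OddHalf.Table.AutRGD Cfsg.Agent.OddHalf.Table.AutNorm
  Cfsg.Agent.Tits Cfsg.Agent.Nodes.RGDLib Cfsg.Agent.UGT.U2.FOne Cfsg.Agent.H330.ClassRes Cfsg.Agent.H330.ClassProd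
  Cfsg.Agent.Nodes.Bruhat Cfsg.Agent.Nodes.LeviDec Cfsg.Agent.Nodes.StabComb Cfsg.Agent.KFacts.RgdEx
  Cfsg.Agent.Nodes.RGDTwE6 Cfsg.Agent.KFacts.TwESix.Comb Cfsg.Agent.KFacts.TwESix.Btw Cfsg.Agent.KFacts.RgdTI
  Cfsg.Agent.KFacts.RgdOdd Cfsg.Agent.KFacts.RgdSL
  Cfsg.Agent.H743.AH.SixFacts Cfsg.Agent.H743.AH.RgdPos Cfsg.Agent.H743.AH.SixA
  Cfsg.Agent.H743.AH.SixB Cfsg.Agent.H743.AH.SixC Cfsg.Agent.H330.ClassTorus Cfsg.Agent.H330.ClassLaced
  Cfsg.Agent.H330.ClassRGD
open Cfsg.Agent.Tits.Core.Bldg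
open scoped commutatorElement

/-! ### Combinatorics -/

/-- the nodes `i` with `DT a i`, for minimal residues of type `K` -/
def dset (K : Finset (Fin 4)) : Finset (Fin 4) :=
  if K = ∅ then {2, 3} else if K = {0} ∨ K = {1} then {0, 1} else if K = {2} ∨ K = {3} then {2, 3} else
  if K = {0, 1} then {0, 1, 2} else if K = {0, 2} ∨ K = {0, 3} ∨ K = {1, 3} then Finset.univ else K

/-- the nodes `i` with `DP a i`, for minimal residues of type `K` -/
def pset (K : Finset (Fin 4)) : Finset (Fin 4) := if K = {0} ∨ K = {1} then {0, 1, 2} else dset K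

theorem comb : ∀ K L : Finset (Fin 4), ∃ i, (i ∈ dset K ∧ i ∈ pset L) ∨ (i ∈ pset K ∧ i ∈ dset L) := by
  decide +kernel

theorem step (a b : Fin 4) (K : Finset (Fin 4)) (hb : b ∈ K) (ha : a ∉ K) (hab : CoxeterMatrix.F₄ a b = 3)
    (h : ∀ j ∈ K, j ≠ b → CoxeterMatrix.F₄ j a = 2) (h' : ∀ j ∈ K.erase b, CoxeterMatrix.F₄ j b = 2) :
    Step CoxeterMatrix.F₄ K (insert a (K.erase b)) :=
  ⟨a, [b], ha, Walk.cons hb hab h (Walk.nil h'), by simp, rfl⟩

theorem s01 : Step CoxeterMatrix.F₄ {0} {1} :=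
  step 1 0 {0} (by decide +kernel) (by decide +kernel) (by decide +kernel) (by decide +kernel) (by decide +kernel)
theorem s10 : Step CoxeterMatrix.F₄ {1} {0} :=
  step 0 1 {1} (by decide +kernel) (by decide +kernel) (by decide +kernel) (by decide +kernel) (by decide +kernel)
theorem s23 : Step CoxeterMatrix.F₄ {2} {3} :=
  step 3 2 {2} (by decide +kernel) (by decide +kernel) (by decide +kernel) (by decide +kernel) (by decide +kernel)
theorem s32 : Step CoxeterMatrix.F₄ {3} {2} :=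
  step 2 3 {3} (by decide +kernel) (by decide +kernel) (by decide +kernel) (by decide +kernel) (by decide +kernel)
theorem t23 : Step CoxeterMatrix.F₄ {0, 2} {0, 3} := by
  have := step 3 2 {0, 2} (by decide +kernel) (by decide +kernel) (by decide +kernel) (by decide +kernel)
    (by decide +kernel)
  rwa [show insert (3 : Fin 4) (({0, 2} : Finset (Fin 4)).erase 2) = {0, 3} by decide +kernel] at this
theorem t32 : Step CoxeterMatrix.F₄ {0, 3} {0, 2} := by
  have := step 2 3 {0, 3} (by decide +kernel) (by decide +kernel) (by decide +kernel) (by decide +kernel)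
    (by decide +kernel)
  rwa [show insert (2 : Fin 4) (({0, 3} : Finset (Fin 4)).erase 3) = {0, 2} by decide +kernel] at this
theorem t01 : Step CoxeterMatrix.F₄ {0, 3} {1, 3} := by
  have := step 1 0 {0, 3} (by decide +kernel) (by decide +kernel) (by decide +kernel) (by decide +kernel)
    (by decide +kernel)
  rwa [show insert (1 : Fin 4) (({0, 3} : Finset (Fin 4)).erase 0) = {1, 3} by decide +kernel] at this
theorem t10 : Step CoxeterMatrix.F₄ {1, 3} {0, 3} := by
  have := step 0 1 {1, 3} (by decide +kernel) (by decide +kernel) (by decide +kernel) (by decide +kernel)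
    (by decide +kernel)
  rwa [show insert (0 : Fin 4) (({1, 3} : Finset (Fin 4)).erase 1) = {0, 3} by decide +kernel] at this

theorem hit_all {K : Finset (Fin 4)} (hK : K = {0, 2} ∨ K = {0, 3} ∨ K = {1, 3}) (i : Fin 4) :
    Hit CoxeterMatrix.F₄ K i := by
  have h03 : Hit CoxeterMatrix.F₄ {0, 3} i := by
    fin_cases i
    · exact Hit.of_mem (by decide)
    · exact Hit.head t01 (Hit.of_mem (by decide))
    · exact Hit.head t32 (Hit.of_mem (by decide))
    · exact Hit.of_mem (by decide)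
  rcases hK with rfl | rfl | rfl
  · exact Hit.head t23 h03
  · exact h03
  · exact Hit.head t10 h03

theorem hit_of_dset {K : Finset (Fin 4)} (h0 : K ≠ ∅) (h01 : K ≠ {0, 1}) {i : Fin 4} (hi : i ∈ dset K) :
    Hit CoxeterMatrix.F₄ K i := by
  unfold dset at hi
  rw [if_neg h0] at hi
  split_ifs at hi with h1 h2 h3
  · rcases h1 with rfl | rfl
    · rcases (by simpa using hi : i = 0 ∨ i = 1) with rfl | rfl
      · exact Hit.of_mem (by decide)
      · exact Hit.head s01 (Hit.of_mem (by decide))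
    · rcases (by simpa using hi : i = 0 ∨ i = 1) with rfl | rfl
      · exact Hit.head s10 (Hit.of_mem (by decide))
      · exact Hit.of_mem (by decide)
  · rcases h2 with rfl | rfl
    · rcases (by simpa using hi : i = 2 ∨ i = 3) with rfl | rfl
      · exact Hit.of_mem (by decide)
      · exact Hit.head s23 (Hit.of_mem (by decide))
    · rcases (by simpa using hi : i = 2 ∨ i = 3) with rfl | rfl
      · exact Hit.head s32 (Hit.of_mem (by decide))
      · exact Hit.of_mem (by decide)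
  · exact hit_all h3 i
  · exact Hit.of_mem hi

theorem L3_ne : ∀ x ∈ L3, x ≠ sr 2 := by decide +kernel

/-- `sr 0 = β₁ + β₂` with `β₁ ⟂ β₂` short -/
def b1 : Fin 4 → ℤ := ![1, 1, 1, 0]
def b2 : Fin 4 → ℤ := ![0, -1, -1, 0]

theorem b12 : b1 ∈ rts ∧ b2 ∈ rts ∧ bf b1 b1 = 2 ∧ bf b2 b2 = 2 ∧ bf b1 b2 = 0 ∧ b1 + b2 = sr 0 := by
  decide +kernel

variable {W Y : Type*} [Group W] [Group Y] {cs : CoxeterSystem CoxeterMatrix.F₄ W} {p : ℕ} {T : Subgroup Y}
  {n : Fin 4 → Y} {X : (Fin 4 → ℤ) → Subgroup Y}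

section

variable (R : RGD cs isCartan p T n X) (lr : ∀ a, IsRoot cs isCartan a → bf a a = 4 → LR R a)

include R

/-- The subgroup generated by the root groups is normal. -/
theorem all_normal (hgen : RGD.B cs isCartan T X ⊔ NN cs R.nsys = ⊤) :
    (RGD.Sup X {x | IsRoot cs isCartan x}).Normal := by
  have : Finite W := finiteW cs
  set H := RGD.Sup X {x | IsRoot cs isCartan x} with hH
  have hB : RGD.B cs isCartan T X ≤ Subgroup.normalizer (H : Set Y) :=
    sup_le (R.T_le_normalizer fun _ hx => hx)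
      ((RGD.Sup_mono (fun x hx => hx.1)).trans (Subgroup.le_normalizer (H := H)))
  have hk : ∀ (w : W) (k : Y), Rp cs R.nsys w k → k ∈ Subgroup.normalizer (H : Set Y) := by
    have h1 : ∀ (w : W) (k : Y), Rp cs R.nsys w k → cj k H ≤ H := fun w k hk =>
      cj_Sup_le R hk (fun x hx => hx) fun x hx => hx.act w
    intro w k hk
    rw [mem_normalizer_iff_cj]
    apply le_antisymm (h1 w k hk)
    have h2 := cj_mono k (h1 _ _ hk.inv)
    rwa [cj_cj_inv] at h2
  have hall : ∀ g : Y, g ∈ Subgroup.normalizer (H : Set Y) := by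
    intro g
    have hGG : GG cs isCartan T X = ⊤ := by
      rw [eq_top_iff, ← hgen]
      exact sup_le B_le_GG (NN_le_GG R)
    obtain ⟨w, b₁, hb₁, k, hkw, b₂, hb₂, rfl⟩ := (mem_GG R).1 (show g ∈ GG cs isCartan T X by rw [hGG]; trivial)
    exact mul_mem (mul_mem (hB hb₁) (hk w k hkw)) (hB hb₂)
  exact ⟨fun x hx g => (Subgroup.mem_normalizer_iff.1 (hall g) x).1 hx⟩

include lr

/-- An element of the torus all of whose conjugates under `N` centralise `X (sr 3)` is `1`. -/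
theorem tor_eq_one [Finite Y] [IsSimpleGroup Y] (hgen : RGD.B cs isCartan T X ⊔ NN cs R.nsys = ⊤)
    (hcore : (RGD.B cs isCartan T X).normalCore = ⊥) (hcard : Nat.card (X (sr 0)) < Nat.card (X (sr 3)))
    (hT : ∀ t ∈ T, ∀ u ∈ X (sr 0), u ≠ 1 → t * u * t⁻¹ = u → ∀ v ∈ X (sr 0), t * v * t⁻¹ = v) {t : Y} (ht : t ∈ T)
    (h : ∀ (w : W) (k : Y), Rp cs R.nsys w k → ∀ v ∈ X (sr 3), (k⁻¹ * t * k) * v * (k⁻¹ * t * k)⁻¹ = v) : t = 1 := by
  have : Finite W := finiteW cs
  obtain ⟨q1, q2, q3, q4, q5, q6⟩ := b12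
  have hr1 := (mem_rts cs).2 q1
  have hr2 := (mem_rts cs).2 q2
  -- the short root groups
  have hsh : ∀ t ∈ T, (∀ (w : W) (k : Y), Rp cs R.nsys w k → ∀ v ∈ X (sr 3),
      (k⁻¹ * t * k) * v * (k⁻¹ * t * k)⁻¹ = v) → ∀ x, IsRoot cs isCartan x → bf x x = 2 → ∀ v ∈ X x, v * t = t * v := by
    intro t _ h x hx hxx v hv
    obtain ⟨w, hw⟩ := exists_rep_short cs hx hxx
    obtain ⟨k, hk⟩ := exists_rp cs R.nsys w
    have h1 : k⁻¹ * v * k ∈ X (sr 3) := by
      have h2 := R.conj_mem hk.inv hx hv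
      rw [← hw, ← rep_mul_apply, inv_mul_cancel, map_one, Module.End.one_apply, inv_inv] at h2
      exact h2
    have h2 := h w k hk _ h1
    have h3 : t * v * t⁻¹ = v := by
      calc t * v * t⁻¹ = k * ((k⁻¹ * t * k) * (k⁻¹ * v * k) * (k⁻¹ * t * k)⁻¹) * k⁻¹ := by group
        _ = k * (k⁻¹ * v * k) * k⁻¹ := by rw [h2]
        _ = v := by group
    calc v * t = (t * v * t⁻¹) * t := by rw [h3]
      _ = t * v := by group
  -- `X (sr 0)`
  have h0 : ∀ t ∈ T, (∀ (w : W) (k : Y), Rp cs R.nsys w k → ∀ v ∈ X (sr 3),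
      (k⁻¹ * t * k) * v * (k⁻¹ * t * k)⁻¹ = v) → ∀ v ∈ X (sr 0), t * v * t⁻¹ = v := by
    intro t ht h
    have h1 := hsh t ht h
    obtain ⟨u, hu, hu1⟩ := exists_ne_one R hr1
    obtain ⟨v, hv, huv⟩ := orth_nd R lr hcard hr1 hr2 q3 q4 q5 hu hu1
    have h2 := orth_mem R hr1 hr2 q3 q4 q5 hu hv
    rw [q6] at h2
    refine hT t ht ⁅u, v⁆ h2 (fun h3 => huv (commutatorElement_eq_one_iff_mul_comm.1 h3)) ?_
    have h4 := h1 _ hr1 q3 u hu
    have h5 := h1 _ hr2 q4 v hv
    have h6 : t * u * t⁻¹ = u := by rw [← h4]; group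
    have h7 : t * v * t⁻¹ = v := by rw [← h5]; group
    calc t * ⁅u, v⁆ * t⁻¹ = ⁅t * u * t⁻¹, t * v * t⁻¹⁆ := by rw [commutatorElement_def, commutatorElement_def]; group
      _ = ⁅u, v⁆ := by rw [h6, h7]
  have hconj : ∀ (w : W) (k : Y), Rp cs R.nsys w k → k⁻¹ * t * k ∈ T ∧ ∀ (w' : W) (k' : Y), Rp cs R.nsys w' k' →
      ∀ v ∈ X (sr 3), (k'⁻¹ * (k⁻¹ * t * k) * k') * v * (k'⁻¹ * (k⁻¹ * t * k) * k')⁻¹ = v := by
    intro w k hk
    refine ⟨?_, fun w' k' hk' v hv => ?_⟩
    · have := (Subgroup.mem_normalizer_iff.1 hk.inv.mem_normalizer t).1 ht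
      rwa [inv_inv] at this
    · have := h (w * w') (k * k') (hk.mul hk') v hv
      have e : (k * k')⁻¹ * t * (k * k') = k'⁻¹ * (k⁻¹ * t * k) * k' := by group
      rwa [e] at this
  have hall : ∀ x, IsRoot cs isCartan x → ∀ v ∈ X x, v * t = t * v := by
    intro x hx v hv
    rcases norm cs hx with hl | hl
    · obtain ⟨w, hw⟩ := exists_rep_long cs hx hl
      obtain ⟨k, hk⟩ := exists_rp cs R.nsys w
      have h1 : k⁻¹ * v * k ∈ X (sr 0) := by
        have h2 := R.conj_mem hk.inv hx hv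
        rw [← hw, ← rep_mul_apply, inv_mul_cancel, map_one, Module.End.one_apply, inv_inv] at h2
        exact h2
      obtain ⟨h3, h4⟩ := hconj w k hk
      have h2 := h0 _ h3 h4 _ h1
      have h3 : t * v * t⁻¹ = v := by
        calc t * v * t⁻¹ = k * ((k⁻¹ * t * k) * (k⁻¹ * v * k) * (k⁻¹ * t * k)⁻¹) * k⁻¹ := by group
          _ = k * (k⁻¹ * v * k) * k⁻¹ := by rw [h2]
          _ = v := by group
      calc v * t = (t * v * t⁻¹) * t := by rw [h3]
        _ = t * v := by group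
    · exact hsh t ht h x hx hl v hv
  have hN := all_normal R hgen
  have htop : RGD.Sup X {x | IsRoot cs isCartan x} = ⊤ := by
    refine (hN.eq_bot_or_eq_top).resolve_left fun h1 => ?_
    obtain ⟨u, hu, hu1⟩ := exists_ne_one R hr1
    have h2 : u ∈ RGD.Sup X {x | IsRoot cs isCartan x} := RGD.le_Sup (S := {x | IsRoot cs isCartan x}) hr1 hu
    rw [h1, Subgroup.mem_bot] at h2
    exact hu1 h2
  have hcen : ∀ g : Y, g * t = t * g := by
    intro g
    have h1 : RGD.Sup X {x | IsRoot cs isCartan x} ≤ Subgroup.centralizer ({t} : Set Y) :=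
      RGD.Sup_le fun x hx v hv => Subgroup.mem_centralizer_singleton_iff.2 (hall x hx v hv)
    exact Subgroup.mem_centralizer_singleton_iff.1 (h1 (by rw [htop]; trivial))
  have h1 : t ∈ (RGD.B cs isCartan T X).normalCore := by
    intro g
    have h2 : g * t * g⁻¹ = t := by rw [hcen g]; group
    rw [h2]
    exact T_le_B ht
  rwa [hcore, Subgroup.mem_bot] at h1

end

/-! ### The minimal parabolics -/

section Main

variable [Finite W] [Finite Y] [hp : Fact p.Prime] (R : RGD cs isCartan p T n X)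
  (lr : ∀ a, IsRoot cs isCartan a → bf a a = 4 → LR R a)
  (hgen : RGD.B cs isCartan T X ⊔ NN cs R.nsys = ⊤)
  [hN : (((R.bnPair hgen).B ⊓ (R.bnPair hgen).N).subgroupOf (R.bnPair hgen).N).Normal]
  (cs' : CoxeterSystem CoxeterMatrix.F₄ (WP (R.bnPair hgen)))
  (hcs : ∀ i, cs'.simple i = QuotientGroup.mk
    (⟨(eS R hgen i : Y), (R.bnPair hgen).subset (eS R hgen i).2⟩ : (R.bnPair hgen).N))
  (hcore : (RGD.B cs isCartan T X).normalCore = ⊥) [Fintype (Y ⧸ (R.bnPair hgen).B)]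

include lr in
/-- minimal parabolics of type `{0, 1}` -/
theorem dt_plane (hcard : Nat.card (X (sr 2)) = Nat.card (X (sr 0)) ^ 2) {a : Y} (hpa : ¬ p ∣ orderOf a)
    (hm : GMin cs isCartan T X a {0, 1}) : DT (Sy R hgen cs' hcs hcore) a 2 := by
  refine dt_of_le R hgen cs' hcs hcore hm hpa fun u hu hua => ?_
  have h1 := of_plane R lr hcard hm hu hua
  refine RGD.Sup_mono (S := st L3) (fun x hx => ?_) h1
  have h2 := prts_sub x (L0_sub x (L1_sub x (L2_sub x (L3_sub x hx))))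
  exact ⟨(mem_rts cs).2 h2.1, h2.2, L3_ne x hx⟩

theorem orderOf_conj' (g a : Y) : orderOf (g * a * g⁻¹) = orderOf a :=
  orderOf_of_isConj (isConj_iff.2 ⟨g, rfl⟩)

include lr in
/-- minimal parabolics of type `{0}`, `{1}` -/
theorem dp_line (hcard : Nat.card (X (sr 0)) < Nat.card (X (sr 3))) {a : Y} (hpa : ¬ p ∣ orderOf a)
    {K : Finset (Fin 4)} (hK : K = {0} ∨ K = {1}) (hm : GMin cs isCartan T X a K) :
    DP (Sy R hgen cs' hcs hcore) a 2 := by
  by_contra hD
  have key : ∃ g : Y, g * a * g⁻¹ ∈ LJ cs isCartan T X ({1} : Set (Fin 4)) := by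
    rcases hK with rfl | rfl
    · obtain ⟨v, -, hv⟩ := exists_conj_levi R hm.mem hpa
      rw [Finset.coe_singleton] at hv
      have hk : Rp cs R.nsys (cs.simple 0 * cs.simple 1) (n 0 * n 1) :=
        (rp_simple cs R.nsys 0).mul (rp_simple cs R.nsys 1)
      refine ⟨n 0 * n 1 * v, ?_⟩
      have h1 := conj_mem_LJ R hk (J := {0}) (J' := {1}) (fun x hx => ?_) hv
      · have e : n 0 * n 1 * v * a * (n 0 * n 1 * v)⁻¹ = n 0 * n 1 * (v * a * v⁻¹) * (n 0 * n 1)⁻¹ := by group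
        rw [e]
        exact h1
      · have h3 : rep cs isCartan (cs.simple 0 * cs.simple 1) (sr 0) = sr 1 := by
          rw [rep_mul_apply, rep_simple_refl, rep_simple_refl]
          decide +kernel
        have h4 : (sr 1 : Fin 4 → ℤ) ∈ RootsJ cs isCartan ({1} : Set (Fin 4)) :=
          PosJ_subset _ (sr_mem_PosJ (Set.mem_singleton 1))
        rcases List.mem_cons.1 (RootsJ_single hx) with rfl | h2
        · rw [h3]; exact h4
        · rw [List.mem_singleton] at h2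
          rw [h2, map_neg, h3]
          exact RootsJ.neg h4
    · obtain ⟨v, -, hv⟩ := exists_conj_levi R hm.mem hpa
      rw [Finset.coe_singleton] at hv
      exact ⟨v, hv⟩
  obtain ⟨g, hg⟩ := key
  have hmg : GMin cs isCartan T X (g * a * g⁻¹) {1} :=
    hm.conj (by rw [Finset.coe_singleton]; exact LJ_le_PJ hg) (by rcases hK with rfl | rfl <;> rfl)
  have hpg : ∀ x : Y, ¬ p ∣ orderOf (x * a * x⁻¹) := fun x => by rwa [orderOf_conj']
  have hDg : ∀ x : Y, ¬ DP (Sy R hgen cs' hcs hcore) (x * a * x⁻¹) 2 := by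
    intro x hx
    apply hD
    have h1 := DP.conj R hgen cs' hcs hcore hx x⁻¹
    have e : x⁻¹ * (x * a * x⁻¹) * x⁻¹⁻¹ = a := by group
    rwa [e] at h1
  refine of_line R lr hcard hg hmg
    (fun x hx => trans_of_not_dp R hgen cs' hcs hcore hmg (hpg g) (hDg g) hx) fun x hx y hy => ?_
  have e : x * (g * a * g⁻¹) * x⁻¹ = (x * g) * a * (x * g)⁻¹ := by group
  have h1 : ¬ p ∣ orderOf (x * (g * a * g⁻¹) * x⁻¹) := by rw [e]; exact hpg _
  have h2 : ¬ DP (Sy R hgen cs' hcs hcore) (x * (g * a * g⁻¹) * x⁻¹) 2 := by rw [e]; exact hDg _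
  exact trans_of_not_dp R hgen cs' hcs hcore hx h1 h2 hy

variable [IsSimpleGroup Y]

include lr in
/-- minimal parabolics of type `∅` -/
theorem dt_empty (hcard : Nat.card (X (sr 0)) < Nat.card (X (sr 3)))
    (hT : ∀ i, ∀ t ∈ T, ∀ u ∈ X (sr i), u ≠ 1 → t * u * t⁻¹ = u → ∀ v ∈ X (sr i), t * v * t⁻¹ = v) {a : Y}
    (ha : a ≠ 1) (hpa : ¬ p ∣ orderOf a) (hm : GMin cs isCartan T X a ∅) :
    DT (Sy R hgen cs' hcs hcore) a 2 ∧ DT (Sy R hgen cs' hcs hcore) a 3 := by
  have hW : Finite (WP (R.bnPair hgen)) := inferInstance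
  have hC' : Cox cs' := inferInstance
  have hth : (Bl R hgen cs' hcs).Thick := thick (R.bnPair hgen) (eS R hgen) cs' hcs
  have htr : ∀ x y : Y ⧸ (R.bnPair hgen).B, ∃ g : Y, g • x = y := fun x y => MulAction.exists_smul_eq Y x y
  obtain ⟨v, -, hv⟩ := exists_conj_levi R hm.mem hpa
  set b := v * a * v⁻¹ with hb
  have hbT : b ∈ T := by
    rw [Finset.coe_empty] at hv
    have h1 : LJ cs isCartan T X (∅ : Set (Fin 4)) ≤ T := by
      refine sup_le le_rfl (RGD.Sup_le fun x hx => ?_)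
      exfalso
      exact hx.1.ne_zero (funext fun j => hx.2 j (Set.notMem_empty j))
    exact h1 hv
  have hb1 : b ≠ 1 := by
    intro h0
    apply ha
    have : a = v⁻¹ * b * v := by rw [hb]; group
    rw [this, h0]; group
  have hex : ∃ (w : W) (k : Y), Rp cs R.nsys w k ∧ ∃ x ∈ X (sr 3), (k⁻¹ * b * k) * x * (k⁻¹ * b * k)⁻¹ ≠ x := by
    by_contra hcon
    push Not at hcon
    exact hb1 (tor_eq_one R lr hgen hcore hcard (hT 0) hbT hcon)
  obtain ⟨w, k, hk, x, hx, hne⟩ := hex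
  set c := k⁻¹ * b * k with hc
  have hcT : c ∈ T := by
    have := (Subgroup.mem_normalizer_iff.1 hk.inv.mem_normalizer b).1 hbT
    rwa [inv_inv] at this
  have hpc : ¬ p ∣ orderOf c := by
    have e : c = (k⁻¹ * v) * a * (k⁻¹ * v)⁻¹ := by rw [hc, hb]; group
    rw [e, orderOf_conj']
    exact hpa
  have hfix : c • ch R hgen 1 = ch R hgen 1 := by
    have : c • ch R hgen 1 = ch R hgen (c * 1) := rfl
    rw [this, mul_one, eq_comm, FixBN.OfBN.mk_eq, inv_one, one_mul]
    exact T_le_B hcT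
  have hnt : NT (Bl R hgen cs' hcs) c (ch R hgen 1) 3 := by
    refine ⟨ch R hgen (x * n 3), ?_, fun h0 => hne ?_⟩
    · rw [mem_pan_iff hcs]
      exact Or.inr ⟨x, hx, by rw [one_mul]⟩
    · have h1 : ch R hgen (c * (x * n 3)) = ch R hgen (x * n 3) := h0
      rw [eq_comm, FixBN.OfBN.mk_eq] at h1
      have h2 : x⁻¹ * (c * x * c⁻¹) ∈ X (sr 3) := mul_mem (inv_mem hx) (X_conj_T R (isRoot_sr cs isCartan 3) hcT hx)
      have h3 : x⁻¹ * (c * x * c⁻¹) = 1 := by
        refine eq_one_of_conj_mem R 3 h2 ?_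
        have e : (n 3)⁻¹ * (x⁻¹ * (c * x * c⁻¹)) * n 3 =
            ((x * n 3)⁻¹ * (c * (x * n 3))) * ((n 3)⁻¹ * c * n 3)⁻¹ := by group
        rw [e]
        exact mul_mem h1 (inv_mem (T_le_B (T_conj_n R 3 hcT)))
      rw [inv_mul_eq_one] at h3
      exact h3.symm
  have hF : ∀ i, Free (Bl R hgen cs' hcs) Y p i := by
    intro i x c y z _ hc hy hz hyc hzc hyz hxy hxz
    exact free_of_rgd R hgen cs' hcs i (hT i) hc hy hz hyc hzc hyz hxy hxz
  have h3 : DT (Sy R hgen cs' hcs hcore) c 3 :=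
    dt_of_nt (Sy R hgen cs' hcs hcore) hth htr hfix hpc (hF 3) hnt
  have h2 : DT (Sy R hgen cs' hcs hcore) c 2 := by
    obtain ⟨d, hd, hnd⟩ := nt_three (Sy R hgen cs' hcs hcore) hth htr hfix hpc (i := 3) (j := 2)
      (by decide +kernel) hnt
    exact dt_of_nt (Sy R hgen cs' hcs hcore) hth htr hd hpc (hF 2) hnd
  have e : (v⁻¹ * k) * c * (v⁻¹ * k)⁻¹ = a := by rw [hc, hb]; group
  have h2' := h2.conj (v⁻¹ * k)
  have h3' := h3.conj (v⁻¹ * k)
  rw [e] at h2' h3'
  exact ⟨h2', h3'⟩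

end Main

/-! ### The theorem -/

/-- **No two `p`-regular classes whose product is a `p`-regular class: the root group data of `²E₆(q)`.** -/
theorem notA_rgd [Finite Y] [IsSimpleGroup Y] [Fact p.Prime] (R : RGD cs isCartan p T n X)
    (lr : ∀ a, IsRoot cs isCartan a → bf a a = 4 → LR R a) (hgen : RGD.B cs isCartan T X ⊔ NN cs R.nsys = ⊤)
    (hT : ∀ i, ∀ t ∈ T, ∀ u ∈ X (sr i), u ≠ 1 → t * u * t⁻¹ = u → ∀ v ∈ X (sr i), t * v * t⁻¹ = v)
    (hcard3 : Nat.card (X (sr 0)) < Nat.card (X (sr 3)))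
    (hcard2 : Nat.card (X (sr 2)) = Nat.card (X (sr 0)) ^ 2) : H27.AH.NotA p Y := by
  classical
  have hWf : Finite W := finiteW cs
  have hcore := H330.ClassLacedRGD.core_eq_bot R hgen
  obtain ⟨hN, cs', hcs, hW, hS⟩ := exists_setup R hgen hcore
  have hC : Cox cs' := inferInstance
  have : Fintype (Y ⧸ (R.bnPair hgen).B) := Fintype.ofFinite _
  have hne : (R.bnPair hgen).S.Nonempty := ⟨n 0, 0, rfl⟩
  have hsp : FixBN.HasSplit p Y := ⟨_, _, hne, hS⟩
  have hth : (Bl R hgen cs' hcs).Thick := thick (R.bnPair hgen) (eS R hgen) cs' hcs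
  have htr : ∀ x y : Y ⧸ (R.bnPair hgen).B, ∃ g : Y, g • x = y := fun x y => MulAction.exists_smul_eq Y x y
  intro a b c ha hb hc h hpa hpb hpc
  -- the two sets of nodes
  have key : ∀ g : Y, g ≠ 1 → ¬ p ∣ orderOf g → ∃ K : Finset (Fin 4),
      (∀ i ∈ dset K, DT (Sy R hgen cs' hcs hcore) g i) ∧ ∀ i ∈ pset K, DP (Sy R hgen cs' hcs hcore) g i := by
    intro g hg hpg
    obtain ⟨K, x, hm⟩ := exists_gMin R hgen g
    have hmin : MinRes (Bl R hgen cs' hcs) g K (ch R hgen x) := (minRes_iff R hgen cs' hcs).2 hm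
    have hpx : ¬ p ∣ orderOf (x⁻¹ * g * x) := by
      have e : x⁻¹ * g * x = x⁻¹ * g * x⁻¹⁻¹ := by rw [inv_inv]
      rwa [e, orderOf_conj']
    have hx1 : x⁻¹ * g * x ≠ 1 := by
      intro h0
      apply hg
      have : g = x * (x⁻¹ * g * x) * x⁻¹ := by group
      rw [this, h0]; group
    have e : x * (x⁻¹ * g * x) * x⁻¹ = g := by group
    have hd : ∀ i ∈ dset K, DT (Sy R hgen cs' hcs hcore) g i := by
      intro i hi
      by_cases h0 : K = ∅
      · subst h0
        obtain ⟨h2, h3⟩ := dt_empty R lr hgen cs' hcs hcore hcard3 hT hx1 hpx hm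
        have h2' := h2.conj x
        have h3' := h3.conj x
        rw [e] at h2' h3'
        unfold dset at hi
        rw [if_pos rfl] at hi
        rcases (by simpa using hi : i = 2 ∨ i = 3) with rfl | rfl
        · exact h2'
        · exact h3'
      by_cases h01 : K = {0, 1}
      · subst h01
        have h2 := (dt_plane R lr hgen cs' hcs hcore hcard2 hpx hm).conj x
        rw [e] at h2
        have hi' : i ∈ ({0, 1, 2} : Finset (Fin 4)) := by
          revert hi
          revert i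
          decide +kernel
        rcases (by simpa using hi' : i = 0 ∨ i = 1 ∨ i = 2) with rfl | rfl | rfl
        · exact hmin.dt (Sy R hgen cs' hcs hcore) hth htr hpg (by decide)
        · exact hmin.dt (Sy R hgen cs' hcs hcore) hth htr hpg (by decide)
        · exact h2
      · exact dt_of_hit (Sy R hgen cs' hcs hcore) hth htr hmin hpg (hit_of_dset h0 h01 hi)
    refine ⟨K, hd, fun i hi => ?_⟩
    by_cases hK : K = {0} ∨ K = {1}
    · unfold pset at hi
      rw [if_pos hK] at hi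
      rcases (by simpa using hi : i = 0 ∨ i = 1 ∨ i = 2) with rfl | rfl | rfl
      · exact (hd 0 (by rcases hK with rfl | rfl <;> decide +kernel)).dp hth
      · exact (hd 1 (by rcases hK with rfl | rfl <;> decide +kernel)).dp hth
      · have h2 := DP.conj R hgen cs' hcs hcore (dp_line R lr hgen cs' hcs hcore hcard3 hpx hK hm) x
        rwa [e] at h2
    · unfold pset at hi
      rw [if_neg hK] at hi
      exact (hd i hi).dp hth
  obtain ⟨K, hKd, hKp⟩ := key a ha hpa
  obtain ⟨L, hLd, hLp⟩ := key b hb hpb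
  obtain ⟨i, ⟨h1, h2⟩ | ⟨h1, h2⟩⟩ := comb K L
  · exact clash htr hsp h hpa hpb (hKd i h1) (hLp i h2)
  · exact clash htr hsp h.symm hpb hpa (hLd i h2) (hKp i h1)

end Cfsg.Agent.H743.AH.SixD
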