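import Cfsg.Agent.KFacts.TwESix.NonComm
import Cfsg.Agent.KFacts.TwESix.Btw
import Cfsg.Agent.H743.AH.RgdPos
import Cfsg.Agent.Nodes.CardSup

/-!
# Root groups of `²E₆(q)`, every characteristic (helper743)

`R : RGD cs isCartan p T n X` of type `F₄` (nodes `0, 1` long, `2, 3` short) with
`lr` : the long root groups satisfy `LR`.

* `long_comm` : long root groups commute with the root groups at an angle `≤ 90` degrees;
* `ne135` : `1 ≠ r ∈ X x`, `x` long, `1 ≠ v ∈ X y`, `y` short, 135 degrees: `⁅r, v⁆ ∉ X (x + 2y)`;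
* `nc`, `orth_nd` : if `|X (sr 0)| < |X (sr 3)|` then the pairing of two orthogonal short root groups is nondegenerate;
* `nat_mod` : the natural module of a rank one subgroup.
-/

set_option autoImplicit false
set_option linter.unusedSectionVars false

namespace Cfsg.Agent.H743.AH.SixFacts

open CoxeterSystem Cfsg.Agent.ChevalleyStructure.CoxeterGeom Cfsg.Agent.Tits.Roots Cfsg.Agent.Tits.Core
  Cfsg.Agent.Tits.RootComb Cfsg.Agent.Tits.Exchange Cfsg.Agent.Nodes.Reps Cfsg.Agent.Nodes.BNOf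
  Cfsg.Agent.Nodes.StabComb Cfsg.Agent.Nodes.Bruhat Cfsg.Agent.Nodes.OppDec Cfsg.Agent.Nodes.LeviDec
  Cfsg.Agent.Nodes.Coroot Cfsg.Agent.KFacts.RgdSL Cfsg.Agent.KFacts.RgdTI Cfsg.Agent.KFacts.RgdOdd
  Cfsg.Agent.KFacts.RgdEx
  Cfsg.Agent.Nodes.RGDTwE6 Cfsg.Agent.KFacts.TwESix.Comb Cfsg.Agent.KFacts.TwESix.CombRho
  Cfsg.Agent.KFacts.TwESix.Btw
open scoped commutatorElement

/-! ### The natural module of a rank one Levi subgroup -/

section Gen

variable {I W Y : Type*} [Fintype I] [DecidableEq I] [Group W] [Group Y] {M : CoxeterMatrix I}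
  {cs : CoxeterSystem M W} {A : I → I → ℤ} {h : IsCartan M A} {p : ℕ} {T : Subgroup Y} {n : I → Y}
  {X : (I → ℤ) → Subgroup Y} [Finite W] (R : RGD cs h p T n X)

include R

/-- Every element of `X δ * X (δ + α_i)` is conjugate under the Levi subgroup to an element of `X (δ + α_i)`. -/
theorem nat_mod {d : I → ℤ} {i : I} (hA : A2 cs h d (sr i)) {r s : Y} (hr : r ∈ X d) (hs : s ∈ X (d + sr i)) :
    ∃ g ∈ LJ cs h T X {i}, g * (r * s) * g⁻¹ ∈ X (d + sr i) := by
  by_cases hr1 : r = 1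
  · refine ⟨1, one_mem _, ?_⟩
    rw [hr1]
    simpa using hs
  have hsi : sr i ∈ RootsJ cs h ({i} : Set I) := PosJ_subset _ (sr_mem_PosJ (Set.mem_singleton i))
  obtain ⟨v, hv, e⟩ := hA.comm_surj R hr hr1 hs
  have e1 : v * (r * s) * v⁻¹ = r := by
    have h1 : s * v = v * s := hA.comm_right R hs hv
    have h2 : s * r = r * s := hA.comm_left R hs hr
    have h3 : v * r * v⁻¹ = ⁅r, v⁆⁻¹ * r := by rw [commutatorElement_def]; group
    calc v * (r * s) * v⁻¹ = (v * r * v⁻¹) * (v * s) * v⁻¹ := by group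
      _ = (s⁻¹ * r) * (s * v) * v⁻¹ := by rw [h3, e, h1]
      _ = s⁻¹ * (r * s) := by group
      _ = r := by rw [← h2]; group
  have h1 : n i * r * (n i)⁻¹ ∈ X (d + sr i) := by
    have h2 := R.conj_mem (rp_simple cs R.nsys i) hA.rx hr
    have h3 : rep cs h (cs.simple i) d = d + sr i := by
      have h4 := hA.cxy
      rw [cpr_sr] at h4
      rw [rep_simple_eq, h4, neg_one_smul, sub_neg_eq_add]
    rwa [h3] at h2
  refine ⟨n i * v, mul_mem (n_mem_LJ R (Set.mem_singleton i)) (X_le_LJ hsi hv), ?_⟩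
  have e2 : n i * v * (r * s) * (n i * v)⁻¹ = n i * (v * (r * s) * v⁻¹) * (n i)⁻¹ := by group
  rw [e2, e1]
  exact h1

/-- An element of `LJ {i}` centralising a nontrivial element of `X (δ + α_i)` lies in `B`. -/
theorem mem_B_of_nat {d : I → ℤ} {i : I} (hA : A2 cs h d (sr i)) {s : Y} (hs : s ∈ X (d + sr i)) (hs1 : s ≠ 1) {a : Y}
    (ha : a ∈ LJ cs h T X {i}) (hc : a * s = s * a) : a ∈ RGD.B cs h T X := by
  obtain ⟨w, hw, hcell⟩ := exists_cellJ R ha
  obtain ⟨b₁, hb₁, k, hk, b₂, hb₂, e⟩ := hcell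
  have hnorm : ∀ b ∈ BJ cs h T X ({i} : Set I), ∀ v ∈ X (d + sr i), b * v * b⁻¹ ∈ X (d + sr i) := by
    have h1 : BJ cs h T X ({i} : Set I) ≤ Subgroup.normalizer (X (d + sr i) : Set Y) := by
      refine sup_le (fun t ht => ?_) (RGD.Sup_le fun x hx => ?_)
      · rw [mem_normalizer_iff_cj]
        exact R.tor _ hA.rxy t ht
      · have hx' : x = sr i := by
          obtain ⟨c, hc⟩ : ∃ c : ℤ, x = c • sr i := by
            refine ⟨x i, funext fun j => ?_⟩
            by_cases hj : j = i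
            · subst hj; rw [Pi.smul_apply, sr_self, smul_eq_mul, mul_one]
            · rw [hx.2.2 j hj, Pi.smul_apply, sr_ne hj, smul_zero]
          have hu := isUnit_of_smul cs h hx.1 c hc
          rw [Int.isUnit_iff] at hu
          rcases hu with rfl | rfl
          · rw [hc, one_smul]
          · exfalso
            have h2 := hx.2.1 i
            rw [hc, Pi.smul_apply, sr_self, Pi.zero_apply] at h2
            norm_num at h2
        subst hx'
        intro b hb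
        rw [Subgroup.mem_normalizer_iff]
        intro v
        constructor
        · intro hv
          have h2 : v * b = b * v := hA.comm_right R hv hb
          have e1 : b * v * b⁻¹ = v := by rw [← h2]; group
          rw [e1]; exact hv
        · intro hv
          have h2 : (b * v * b⁻¹) * b = b * (b * v * b⁻¹) := hA.comm_right R hv hb
          have e1 : v = b⁻¹ * (b * v * b⁻¹ * b) := by group
          rw [h2] at e1
          rw [e1]
          have e2 : b⁻¹ * (b * (b * v * b⁻¹)) = b * v * b⁻¹ := by group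
          rw [e2]; exact hv
    intro b hb v hv
    exact (Subgroup.mem_normalizer_iff.1 (h1 hb) v).1 hv
  have hBJ : BJ cs h T X ({i} : Set I) ≤ RGD.B cs h T X := BJ_le_B _
  by_cases hw1 : w = 1
  · subst hw1
    rw [e]
    exact mul_mem (mul_mem (hBJ hb₁) (RGD.T_le_B (by simpa using rp_one.unique hk))) (hBJ hb₂)
  · exfalso
    have hws : w = cs.simple i := by
      have hsub : WJ cs ({i} : Set I) ≤ Subgroup.zpowers (cs.simple i) := by
        unfold WJ
        rw [Subgroup.closure_le]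
        rintro _ ⟨j, hj, rfl⟩
        rw [Set.mem_singleton_iff] at hj
        subst hj
        exact Subgroup.mem_zpowers _
      obtain ⟨m, hm⟩ := Subgroup.mem_zpowers_iff.1 (hsub hw)
      rcases Int.even_or_odd' m with ⟨c, hc | hc⟩
      · exfalso
        apply hw1
        rw [← hm, hc, zpow_mul]
        have : cs.simple i ^ (2 : ℤ) = 1 := by
          rw [zpow_ofNat, pow_two, cs.simple_mul_simple_self]
        rw [this, one_zpow]
      · rw [← hm, hc, zpow_add, zpow_mul, zpow_one]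
        have : cs.simple i ^ (2 : ℤ) = 1 := by
          rw [zpow_ofNat, pow_two, cs.simple_mul_simple_self]
        rw [this, one_zpow, one_mul]
    subst hws
    have h1 := hnorm b₂ hb₂ s hs
    have h2 := hnorm b₁⁻¹ (inv_mem hb₁) s hs
    rw [inv_inv] at h2
    have h3 : k * (b₂ * s * b₂⁻¹) * k⁻¹ = b₁⁻¹ * s * b₁ := by
      have h4 : a * s * a⁻¹ = s := by rw [hc]; group
      calc k * (b₂ * s * b₂⁻¹) * k⁻¹ = b₁⁻¹ * (a * s * a⁻¹) * b₁ := by rw [e]; group
        _ = _ := by rw [h4]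
    have h5 : k * (b₂ * s * b₂⁻¹) * k⁻¹ ∈ X d := by
      have h6 := R.conj_mem hk hA.rxy h1
      have h7 : rep cs h (cs.simple i) (d + sr i) = d := by
        have h4 := hA.cxy
        rw [cpr_sr] at h4
        rw [map_add, rep_simple_sr, rep_simple_eq, h4, neg_one_smul, sub_neg_eq_add, add_neg_cancel_right]
      rwa [h7] at h6
    have h6 := X_inf_X R hA.rx hA.rxy (by
      intro h0
      exact hA.ry.ne_zero (by simpa using h0))
    have h7 : b₁⁻¹ * s * b₁ ∈ X d ⊓ X (d + sr i) := ⟨by rw [← h3]; exact h5, h2⟩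
    rw [h6, Subgroup.mem_bot] at h7
    apply hs1
    have : s = b₁ * (b₁⁻¹ * s * b₁) * b₁⁻¹ := by group
    rw [this, h7]; group

end Gen

/-! ### Type `F₄` -/

variable {W Y : Type*} [Group W] [Group Y] {cs : CoxeterSystem CoxeterMatrix.F₄ W} {p : ℕ} {T : Subgroup Y}
  {n : Fin 4 → Y} {X : (Fin 4 → ℤ) → Subgroup Y}

variable (R : RGD cs isCartan p T n X)

include R

theorem exists_ne_one {b : Fin 4 → ℤ} (hb : IsRoot cs isCartan b) : ∃ u ∈ X b, u ≠ 1 := by
  have := X_ne_bot R hb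
  rw [Subgroup.ne_bot_iff_exists_ne_one] at this
  obtain ⟨⟨a, ha⟩, h1⟩ := this
  exact ⟨a, ha, fun h2 => h1 (Subtype.ext h2)⟩

theorem exists_tor {b : Fin 4 → ℤ} (hb : IsRoot cs isCartan b) {v v' : Y} (hv : v ∈ X b) (hv1 : v ≠ 1) (hv' : v' ∈ X b)
    (hv1' : v' ≠ 1) : ∃ t ∈ T, t * v * t⁻¹ = v' := by
  have : Finite W := finiteW cs
  obtain ⟨x, hx, h1, h2⟩ := nbr b ((mem_rts cs).1 hb)
  have hA := a2 cs ((mem_rts cs).2 hx) hb h1 h2
  obtain ⟨t, ht, e⟩ := hA.tor_trans R hv hv1 hv' hv1'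
  exact ⟨t, ht.1, e⟩

theorem tor_mem {b : Fin 4 → ℤ} (hb : IsRoot cs isCartan b) {t v : Y} (ht : t ∈ T) (hv : v ∈ X b) :
    t * v * t⁻¹ ∈ X b := by
  rw [← R.tor b hb t ht]
  exact conj_mem_cj.2 hv

/-- `[X x, X y] ≤ X (x + y)` for `x ⟂ y` short. -/
theorem orth_mem {x y : Fin 4 → ℤ} (hx : IsRoot cs isCartan x) (hy : IsRoot cs isCartan y) (hxx : bf x x = 2)
    (hyy : bf y y = 2) (hxy : bf x y = 0) {u v : Y} (hu : u ∈ X x) (hv : v ∈ X y) : ⁅u, v⁆ ∈ X (x + y) := by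
  have hne : x ≠ y := by rintro rfl; omega
  have hne' : x ≠ -y := by
    rintro rfl
    rw [bf_neg_left] at hxy
    omega
  exact btw_le_of (fun z hz => btwn_orth cs hxx hyy hxy hz) (R.comm x y hx hy hne hne' u hu v hv)

/-- `[X x, X y] ≤ X (x + y) X (x + 2 y)`, `x` long, `y` short at 135 degrees. -/
theorem btw_135 {x y : Fin 4 → ℤ} (hx : IsRoot cs isCartan x) (hy : IsRoot cs isCartan y) (hxx : bf x x = 4)
    (hyy : bf y y = 2) (hxy : bf x y = -2) {u v : Y} (hu : u ∈ X x) (hv : v ∈ X y) :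
    ⁅u, v⁆ ∈ X (x + y) ⊔ X (x + (2 : ℤ) • y) := by
  have h1 := R.comm x y hx hy (by rintro rfl; omega) (by
    rintro rfl
    rw [bf_neg_left, bf_neg_right] at hxx
    omega) u hu v hv
  have h2 : btw cs isCartan X x y ≤ X (x + y) ⊔ X (x + (2 : ℤ) • y) := by
    refine iSup_le fun z => ?_
    rcases btwn_135 cs hxx hyy hxy z.2 with h3 | h3
    · rw [h3]; exact le_sup_left
    · rw [h3]; exact le_sup_right
  exact h2 h1

/-- Root groups with nothing between them (decidable form). -/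
theorem comm_of_bt {x y : Fin 4 → ℤ} (hx : x ∈ rts) (hy : y ∈ rts) (hxy : x ≠ y) (hxy' : x ≠ -y)
    (hb : ∀ z ∈ rts, ¬ bt x y z) {u v : Y} (hu : u ∈ X x) (hv : v ∈ X y) : u * v = v * u := by
  have : Finite W := finiteW cs
  have hx' := (mem_rts cs).2 hx
  have hy' := (mem_rts cs).2 hy
  refine comm_of_not_btwn R hx' hy' hxy hxy' (fun z hz => ?_) hu hv
  obtain ⟨h1, h2⟩ := btwn_spec cs hx' hy' hxy hxy' hz
  exact hb z h1 h2

section Lr

variable (lr : ∀ a, IsRoot cs isCartan a → bf a a = 4 → LR R a)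

include lr

/-- A long root group commutes with every root group at an angle ≤ 90 degrees. -/
theorem long_comm {x a : Fin 4 → ℤ} (hx : IsRoot cs isCartan x) (ha : IsRoot cs isCartan a) (haa : bf a a = 4)
    (hxa : 0 ≤ bf x a) {u v : Y} (hu : u ∈ X x) (hv : v ∈ X a) : u * v = v * u :=
  (lr a ha haa).comm x hx ((ge_iff cs ha haa).2 hxa) u hu v hv

/-- products in a direct decomposition -/
theorem dec135 {x y : Fin 4 → ℤ} (hs : IsRoot cs isCartan (x + y)) (hl : IsRoot cs isCartan (x + (2 : ℤ) • y))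
    (hxx : bf x x = 4) (hyy : bf y y = 2) (hxy : bf x y = -2) {c : Y} (hc : c ∈ X (x + y) ⊔ X (x + (2 : ℤ) • y)) :
    ∃ w ∈ X (x + y), ∃ z ∈ X (x + (2 : ℤ) • y), c = w * z := by
  have n2 : bf (x + (2 : ℤ) • y) (x + (2 : ℤ) • y) = 4 := by
    rw [bf_add_left, bf_add_right, bf_add_right, bf_smul_left, bf_smul_left, bf_smul_right, bf_smul_right,
      bf_comm y x, hxx, hyy, hxy]; norm_num
  have hcomm : ∀ c ∈ X (x + y), ∀ d ∈ X (x + (2 : ℤ) • y), c * d = d * c := fun c hc d hd =>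
    long_comm R lr hs hl n2 (by
      rw [bf_add_left, bf_add_right, bf_add_right, bf_smul_right, bf_smul_right, bf_comm y x, hxx, hyy, hxy]
      norm_num) hc hd
  have hle : X (x + y) ≤ Subgroup.normalizer (X (x + (2 : ℤ) • y) : Set Y) := by
    intro c hc
    rw [Subgroup.mem_normalizer_iff]
    intro d
    constructor
    · intro hd
      rw [hcomm c hc d hd, mul_inv_cancel_right]; exact hd
    · intro hd
      have h2 := hcomm c hc _ hd
      have e : d = c⁻¹ * (c * d * c⁻¹ * c) := by group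
      rw [← h2] at e
      rw [e, inv_mul_cancel_left]; exact hd
  rw [← SetLike.mem_coe, Subgroup.coe_mul_of_left_le_normalizer_right _ _ hle] at hc
  obtain ⟨w', hw', z, hz, e⟩ := hc
  exact ⟨w', hw', z, hz, e.symm⟩

/-- `⁅r, v⁆` has a nontrivial component in `X (x + y)`. -/
theorem ne135 {x y : Fin 4 → ℤ} (hx : IsRoot cs isCartan x) (hy : IsRoot cs isCartan y) (hxx : bf x x = 4)
    (hyy : bf y y = 2) (hxy : bf x y = -2) (hs : IsRoot cs isCartan (x + y)) (hl : IsRoot cs isCartan (x + (2 : ℤ) • y))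
    (hx0 : 0 ≤ x) (hy0 : 0 ≤ y) {r v : Y} (hr : r ∈ X x) (hr1 : r ≠ 1) (hv : v ∈ X y)
    (hrv : ⁅r, v⁆ ∈ X (x + (2 : ℤ) • y)) : v = 1 := by
  have : Finite W := finiteW cs
  have n1 : bf (x + y) (x + y) = 2 := by
    rw [bf_add_left, bf_add_right, bf_add_right, bf_comm y x, hxx, hyy, hxy]; norm_num
  obtain ⟨s, hs', a, ha, b, hb, m, hm, he⟩ := exists_mu R hx hr hr1
  have hcyx : cpr cs isCartan y x = -1 := by
    have := cpr_long cs y hx hxx
    rw [bf_comm, hxy] at this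
    omega
  have hsy : rep cs isCartan s y = x + y := by rw [hs', hcyx, neg_one_smul, sub_neg_eq_add, add_comm]
  have hmv : m * v * m⁻¹ ∈ X (x + y) := by
    have := R.conj_mem hm hy hv
    rwa [hsy] at this
  have hxn := hx.neg
  have hav : v * a = a * v := long_comm R lr hy hxn (by rw [bf_neg_left, bf_neg_right]; omega) (by
    rw [bf_neg_right, bf_comm]; omega) hv ha
  have hbv : v * b = b * v := long_comm R lr hy hxn (by rw [bf_neg_left, bf_neg_right]; omega) (by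
    rw [bf_neg_right, bf_comm]; omega) hv hb
  have haf : ⁅r, v⁆ * a = a * ⁅r, v⁆ := long_comm R lr hl hxn (by rw [bf_neg_left, bf_neg_right]; omega) (by
    rw [bf_neg_right, bf_add_left, bf_smul_left, bf_comm y x, hxx, hxy]; norm_num) hrv ha
  have e1 : m * v * m⁻¹ = ⁅r, v⁆ * v := by
    have k1 : b * v * b⁻¹ = v := by rw [← hbv]; group
    calc m * v * m⁻¹ = a * (r * (b * v * b⁻¹) * r⁻¹) * a⁻¹ := by rw [he]; group
      _ = a * (⁅r, v⁆ * v) * a⁻¹ := by rw [k1, commutatorElement_def]; group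
      _ = (a * ⁅r, v⁆) * v * a⁻¹ := by group
      _ = (⁅r, v⁆ * a) * v * a⁻¹ := by rw [haf]
      _ = ⁅r, v⁆ * (a * v) * a⁻¹ := by group
      _ = _ := by rw [← hav]; group
  -- `v ∈ X (x + 2y) X (x + y)`
  have e2 : v = ⁅r, v⁆⁻¹ * (m * v * m⁻¹) := by rw [e1]; group
  have hxne : x ≠ 0 := hx.ne_zero
  have hyne : y ≠ 0 := hy.ne_zero
  -- the closed set `{x + y, x + 2 y}`
  have hcl : Nodes.Unique.Closed cs isCartan ({x + y, x + (2 : ℤ) • y} : Set (Fin 4 → ℤ)) := by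
    have n2 : bf (x + (2 : ℤ) • y) (x + (2 : ℤ) • y) = 4 := by
      rw [bf_add_left, bf_add_right, bf_add_right, bf_smul_left, bf_smul_left, bf_smul_right, bf_smul_right,
        bf_comm y x, hxx, hyy, hxy]; norm_num
    have n3 : bf (x + y) (x + (2 : ℤ) • y) = 2 := by
      rw [bf_add_left, bf_add_right, bf_add_right, bf_smul_right, bf_smul_right, bf_comm y x, hxx, hyy, hxy]
      norm_num
    have key : ∀ z, ¬ Btwn cs isCartan (x + y) (x + (2 : ℤ) • y) z := by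
      intro z hz
      obtain ⟨h1, h2⟩ := btwn_spec cs hs hl (by
        intro h0
        rw [← h0, n1] at n2
        omega) (by
        intro h0
        rw [h0, bf_neg_left, n2] at n3
        omega) hz
      have e : x + (2 : ℤ) • y = x + y + y := by module
      rw [e] at h2
      exact sd4 x ((mem_rts cs).1 hx) hxx y ((mem_rts cs).1 hy) hyy hxy z h1 h2
    rintro c (rfl | rfl) d (rfl | rfl) z hz
    · left; exact Nodes.Unique.btwn_self hs hz
    · exact absurd hz (key z)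
    · exact absurd hz.symm (key z)
    · right; exact Nodes.Unique.btwn_self hl hz
  have hinf := Nodes.Unique.inf_eq R (S := ({y} : Set (Fin 4 → ℤ))) (S' := {x + y, x + (2 : ℤ) • y})
    (by rintro _ rfl; exact ⟨hy, hy0⟩)
    (by
      rintro c (rfl | rfl)
      · exact ⟨hs, add_nonneg hx0 hy0⟩
      · exact ⟨hl, add_nonneg hx0 (by intro i; simpa using hy0 i)⟩)
    (by rintro _ rfl _ rfl z hz; exact Nodes.Unique.btwn_self hy hz) hcl
  have hv1 : v ∈ RGD.Sup X ({y} : Set (Fin 4 → ℤ)) := RGD.le_Sup (S := {y}) rfl hv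
  have hv2 : v ∈ RGD.Sup X ({x + y, x + (2 : ℤ) • y} : Set (Fin 4 → ℤ)) := by
    rw [e2]
    exact mul_mem (inv_mem (RGD.le_Sup (S := {x + y, x + (2 : ℤ) • y}) (Or.inr rfl) hrv))
      (RGD.le_Sup (S := {x + y, x + (2 : ℤ) • y}) (Or.inl rfl) hmv)
  have h5 : v ∈ RGD.Sup X (({y} : Set (Fin 4 → ℤ)) ∩ {x + y, x + (2 : ℤ) • y}) := by
    rw [← hinf]; exact ⟨hv1, hv2⟩
  have h6 : RGD.Sup X (({y} : Set (Fin 4 → ℤ)) ∩ {x + y, x + (2 : ℤ) • y}) ≤ ⊥ := by
    refine RGD.Sup_le ?_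
    rintro z ⟨hz, hz'⟩
    exfalso
    rw [Set.mem_singleton_iff] at hz
    subst hz
    rcases hz' with h0 | h0
    · exact hxne (by simpa using h0)
    · rw [Set.mem_singleton_iff] at h0
      have h1 : x = (-1 : ℤ) • z := by
        have : x = (x + (2 : ℤ) • z) - (2 : ℤ) • z := by abel
        rw [this, ← h0]; module
      rw [h1, bf_smul_left, bf_smul_right] at hxx
      omega
  exact Subgroup.mem_bot.1 (h6 h5)

/-- **(NC)** -/
theorem nc [Finite Y] (hcard : Nat.card (X (sr 0)) < Nat.card (X (sr 3))) :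
    ∃ x y, IsRoot cs isCartan x ∧ IsRoot cs isCartan y ∧ bf x x = 2 ∧ bf y y = 2 ∧ bf x y = 0 ∧
      ∃ u ∈ X x, ∃ v ∈ X y, u * v ≠ v * u := by
  have : Finite W := finiteW cs
  by_contra hno
  push Not at hno
  obtain ⟨ma, mx, my, ml⟩ := Cfsg.Agent.KFacts.TwESix.NonComm.mem1
  have ha := (mem_rts cs).2 ma
  have hx := (mem_rts cs).2 mx
  have hy := (mem_rts cs).2 my
  have hl := (mem_rts cs).2 ml
  obtain ⟨naa, nxx, nyy, nll, nax, nxy, nxl, nyl, nya, -, nxy', nxa'⟩ := Cfsg.Agent.KFacts.TwESix.NonComm.bf1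
  obtain ⟨e1, e2, e3⟩ := Cfsg.Agent.KFacts.TwESix.NonComm.add1
  have hpos : (0 : Fin 4 → ℤ) ≤ KFacts.TwESix.NonComm.a1 ∧ (0 : Fin 4 → ℤ) ≤ KFacts.TwESix.NonComm.y1 ∧
      (0 : Fin 4 → ℤ) ≤ KFacts.TwESix.NonComm.l1 := by
    refine ⟨?_, ?_, ?_⟩ <;> intro i <;> fin_cases i <;> decide
  have hlt : KFacts.TwESix.NonComm.a1 2 ≤ KFacts.TwESix.NonComm.a1 1 ∧
      KFacts.TwESix.NonComm.y1 2 ≤ KFacts.TwESix.NonComm.y1 1 ∧
      KFacts.TwESix.NonComm.l1 1 < KFacts.TwESix.NonComm.l1 2 := by decide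
  generalize KFacts.TwESix.NonComm.a1 = a1 at *
  generalize KFacts.TwESix.NonComm.x1 = x1 at *
  generalize KFacts.TwESix.NonComm.y1 = y1 at *
  generalize KFacts.TwESix.NonComm.l1 = l1 at *
  -- cards
  have hcr : ∀ (w : W) {x : Fin 4 → ℤ}, IsRoot cs isCartan x →
      Nat.card (X (rep cs isCartan w x)) = Nat.card (X x) := fun w x hx => Nodes.CardSup.card_X_rep R w hx
  have hc : Nat.card (X l1) < Nat.card (X x1) := by
    obtain ⟨w, hw⟩ := exists_rep_long cs hl nll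
    obtain ⟨v, hv⟩ := exists_rep_short cs hx nxx
    rw [← hw, ← hv, hcr w (isRoot_sr cs isCartan 0), hcr v (isRoot_sr cs isCartan 3)]
    exact hcard
  obtain ⟨a, haX, ha1⟩ := exists_ne_one R ha
  have hcyl : ∀ c ∈ X y1, ∀ d ∈ X l1, c * d = d * c := fun c hc d hd =>
    long_comm R lr hy hl nll (by rw [nyl]; norm_num) hc hd
  have hcxl : ∀ c ∈ X x1, ∀ d ∈ X l1, c * d = d * c := fun c hc d hd =>
    long_comm R lr hx hl nll (by rw [nxl]; norm_num) hc hd
  have hcxy : ∀ c ∈ X x1, ∀ d ∈ X y1, c * d = d * c := fun c hc d hd =>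
    hno x1 y1 hx hy nxx nyy nxy c hc d hd
  have hdec : ∀ u ∈ X x1, ∃ c ∈ X y1, ∃ f ∈ X l1, ⁅a, u⁆ = c * f := by
    intro u hu
    have h1 := btw_135 R ha hx naa nxx nax haX hu
    have := dec135 R lr (by rw [e1]; exact hy) (by rw [e2]; exact hl) naa nxx nax h1
    rwa [e1, e2] at this
  choose! c hcm f hfm hcf using hdec
  -- pigeonhole
  obtain ⟨u, u', hne, hf⟩ : ∃ u u' : X x1, u ≠ u' ∧ f u = f u' := by
    by_contra h
    push Not at h
    have hinj : Function.Injective (fun u : X x1 => (⟨f u, hfm u u.2⟩ : X l1)) := by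
      intro u u' huu
      by_contra hne
      exact h u u' hne (congrArg Subtype.val huu)
    exact absurd (Nat.card_le_card_of_injective _ hinj) (not_le.2 hc)
  -- `v = u u'⁻¹`
  set v : Y := (u : Y) * (u' : Y)⁻¹ with hv
  have hvX : v ∈ X x1 := mul_mem u.2 (inv_mem u'.2)
  have hv1 : v ≠ 1 := by
    intro h
    exact hne (Subtype.ext (mul_inv_eq_one.1 h))
  have hav : ⁅a, v⁆ ∈ X y1 := by
    have h1 : ⁅a, v⁆ = ⁅a, (u : Y)⁆ * (v * ⁅a, (u' : Y)⁆⁻¹ * v⁻¹) := by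
      rw [hv, commutatorElement_def, commutatorElement_def, commutatorElement_def]; group
    rw [h1, hcf u u.2, hcf u' u'.2]
    have h2 : v * (c u' * f u')⁻¹ * v⁻¹ = (c u' * f u')⁻¹ := by
      have k1 := hcxy v hvX _ (inv_mem (hcm u' u'.2))
      have k2 := hcxl v hvX _ (inv_mem (hfm u' u'.2))
      calc v * (c u' * f u')⁻¹ * v⁻¹ = (v * (f u')⁻¹) * (c u')⁻¹ * v⁻¹ := by group
        _ = (f u')⁻¹ * (v * (c u')⁻¹) * v⁻¹ := by rw [k2]; group
        _ = _ := by rw [k1]; group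
    rw [h2, hf]
    have h3 : c u * f u' * (c u' * f u')⁻¹ = c u * (c u')⁻¹ := by group
    rw [h3]
    exact mul_mem (hcm u u.2) (inv_mem (hcm u' u'.2))
  -- `m a m⁻¹ ∈ X l1 ∩ X a1 X y1`
  obtain ⟨s, hs', q, hq, q', hq', m, hm, he⟩ := exists_mu R hx hvX hv1
  have hcax : cpr cs isCartan a1 x1 = -2 := by
    have := cpr_short cs a1 hx nxx
    rw [this, nax]
  have hsa : rep cs isCartan s a1 = l1 := by
    rw [hs', hcax, ← e2]; module
  have h1 : m * a * m⁻¹ ∈ X l1 := by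
    have := R.conj_mem hm ha haX
    rwa [hsa] at this
  have hpa : ∀ g ∈ X (-x1), g * a = a * g := fun g hg =>
    long_comm R lr hx.neg ha naa (by rw [nxa']; norm_num) hg haX
  have h2 : m * a * m⁻¹ ∈ X a1 ⊔ X y1 := by
    have k1 : q' * a * q'⁻¹ = a := by rw [hpa q' hq']; group
    have k2 : m * a * m⁻¹ = ⁅q, ⁅a, v⁆⁻¹⁆ * ⁅a, v⁆⁻¹ * (q * a * q⁻¹) := by
      have : m * a * m⁻¹ = q * v * (q' * a * q'⁻¹) * v⁻¹ * q⁻¹ := by rw [he]; group
      rw [this, k1, commutatorElement_def, commutatorElement_def]; group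
    rw [k2, hpa q hq, mul_inv_cancel_right]
    have k3 : ⁅q, ⁅a, v⁆⁻¹⁆ ∈ X (-x1 + y1) :=
      orth_mem R hx.neg hy (by rw [bf_neg_left, bf_neg_right, neg_neg]; exact nxx) nyy nxy' hq (inv_mem hav)
    rw [e3] at k3
    exact mul_mem (mul_mem (Subgroup.mem_sup_left k3) (Subgroup.mem_sup_right (inv_mem hav)))
      (Subgroup.mem_sup_left haX)
  -- the two closed sets
  have hinf := Nodes.Unique.inf_eq R (S := {z | IsRoot cs isCartan z ∧ 0 ≤ z ∧ z 1 < z 2})
    (S' := {z | IsRoot cs isCartan z ∧ 0 ≤ z ∧ z 2 ≤ z 1}) (fun z hz => ⟨hz.1, hz.2.1⟩) (fun z hz => ⟨hz.1, hz.2.1⟩)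
    (by
      rintro x ⟨-, hx0, hx1⟩ y ⟨-, hy0, hy1⟩ z ⟨hz, m, a, b, hm, ha, hb, he⟩
      refine ⟨hz, fun i => ?_, ?_⟩
      · have h3 := congrFun he i
        simp only [Pi.add_apply, Pi.smul_apply, smul_eq_mul] at h3
        have h4 : 0 ≤ m * z i := by
          rw [h3]
          exact add_nonneg (mul_nonneg ha.le (hx0 i)) (mul_nonneg hb.le (hy0 i))
        exact nonneg_of_mul_nonneg_right h4 hm
      · have h3 := congrFun he 1
        have h4 := congrFun he 2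
        simp only [Pi.add_apply, Pi.smul_apply, smul_eq_mul] at h3 h4
        have h5 : m * z 1 < m * z 2 := by rw [h3, h4]; nlinarith
        exact lt_of_mul_lt_mul_left h5 hm.le)
    (by
      rintro x ⟨-, hx0, hx1⟩ y ⟨-, hy0, hy1⟩ z ⟨hz, m, a, b, hm, ha, hb, he⟩
      refine ⟨hz, fun i => ?_, ?_⟩
      · have h3 := congrFun he i
        simp only [Pi.add_apply, Pi.smul_apply, smul_eq_mul] at h3
        have h4 : 0 ≤ m * z i := by
          rw [h3]
          exact add_nonneg (mul_nonneg ha.le (hx0 i)) (mul_nonneg hb.le (hy0 i))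
        exact nonneg_of_mul_nonneg_right h4 hm
      · have h3 := congrFun he 1
        have h4 := congrFun he 2
        simp only [Pi.add_apply, Pi.smul_apply, smul_eq_mul] at h3 h4
        have h5 : m * z 2 ≤ m * z 1 := by rw [h3, h4]; nlinarith
        exact le_of_mul_le_mul_left h5 hm)
  have h3 : m * a * m⁻¹ ∈ RGD.Sup X {z | IsRoot cs isCartan z ∧ 0 ≤ z ∧ z 1 < z 2} :=
    RGD.le_Sup (S := {z | IsRoot cs isCartan z ∧ 0 ≤ z ∧ z 1 < z 2}) ⟨hl, hpos.2.2, hlt.2.2⟩ h1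
  have h4 : m * a * m⁻¹ ∈ RGD.Sup X {z | IsRoot cs isCartan z ∧ 0 ≤ z ∧ z 2 ≤ z 1} := by
    have k1 : X a1 ≤ RGD.Sup X {z | IsRoot cs isCartan z ∧ 0 ≤ z ∧ z 2 ≤ z 1} :=
      RGD.le_Sup (S := {z | IsRoot cs isCartan z ∧ 0 ≤ z ∧ z 2 ≤ z 1}) ⟨ha, hpos.1, hlt.1⟩
    have k2 : X y1 ≤ RGD.Sup X {z | IsRoot cs isCartan z ∧ 0 ≤ z ∧ z 2 ≤ z 1} :=
      RGD.le_Sup (S := {z | IsRoot cs isCartan z ∧ 0 ≤ z ∧ z 2 ≤ z 1}) ⟨hy, hpos.2.1, hlt.2.1⟩
    exact (sup_le k1 k2) h2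
  have h5 : m * a * m⁻¹ ∈ RGD.Sup X ({z | IsRoot cs isCartan z ∧ 0 ≤ z ∧ z 1 < z 2} ∩
      {z | IsRoot cs isCartan z ∧ 0 ≤ z ∧ z 2 ≤ z 1}) := by
    rw [← hinf]; exact ⟨h3, h4⟩
  have h6 : RGD.Sup X ({z | IsRoot cs isCartan z ∧ 0 ≤ z ∧ z 1 < z 2} ∩
      {z | IsRoot cs isCartan z ∧ 0 ≤ z ∧ z 2 ≤ z 1}) ≤ ⊥ := by
    refine RGD.Sup_le ?_
    rintro z ⟨hz, hz'⟩
    have := hz.2.2
    have := hz'.2.2
    omega
  have h7 := Subgroup.mem_bot.1 (h6 h5)
  apply ha1
  have : a = m⁻¹ * (m * a * m⁻¹) * m := by group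
  rw [this, h7]; group

/-- The pairing of two orthogonal short root groups is nondegenerate. -/
theorem orth_nd [Finite Y] (hcard : Nat.card (X (sr 0)) < Nat.card (X (sr 3))) {x y : Fin 4 → ℤ}
    (hx : IsRoot cs isCartan x) (hy : IsRoot cs isCartan y) (hxx : bf x x = 2)
    (hyy : bf y y = 2) (hxy : bf x y = 0) {u : Y} (hu : u ∈ X x) (hu1 : u ≠ 1) : ∃ v ∈ X y, u * v ≠ v * u := by
  obtain ⟨x0, y0, hx0, hy0, hxx0, hyy0, hxy0, u0, hu0, v0, hv0, hne⟩ := nc R lr hcard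
  obtain ⟨w, hwx, hwy⟩ := exists_rep_pair cs hx0 hy0 hxx0 hyy0 hxy0 hx hy hxx hyy hxy
  obtain ⟨k, hk⟩ := exists_rp cs R.nsys w
  have h1 : k * u0 * k⁻¹ ∈ X x := by
    have := R.conj_mem hk hx0 hu0
    rwa [hwx] at this
  have h2 : k * v0 * k⁻¹ ∈ X y := by
    have := R.conj_mem hk hy0 hv0
    rwa [hwy] at this
  have hne' : (k * u0 * k⁻¹) * (k * v0 * k⁻¹) ≠ (k * v0 * k⁻¹) * (k * u0 * k⁻¹) := by
    intro h
    apply hne
    have h3 : k * (u0 * v0) * k⁻¹ = k * (v0 * u0) * k⁻¹ := by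
      calc k * (u0 * v0) * k⁻¹ = (k * u0 * k⁻¹) * (k * v0 * k⁻¹) := by group
        _ = (k * v0 * k⁻¹) * (k * u0 * k⁻¹) := h
        _ = _ := by group
    exact mul_left_cancel (mul_right_cancel h3)
  have h11 : k * u0 * k⁻¹ ≠ 1 := by
    intro h
    apply hne'
    rw [h, one_mul, mul_one]
  obtain ⟨t, ht, e⟩ := exists_tor R hx h1 h11 hu hu1
  refine ⟨t * (k * v0 * k⁻¹) * t⁻¹, tor_mem R hy ht h2, fun h => hne' ?_⟩
  rw [← e] at h
  have h3 : t * ((k * u0 * k⁻¹) * (k * v0 * k⁻¹)) * t⁻¹ = t * ((k * v0 * k⁻¹) * (k * u0 * k⁻¹)) * t⁻¹ := by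
    calc t * ((k * u0 * k⁻¹) * (k * v0 * k⁻¹)) * t⁻¹
        = t * (k * u0 * k⁻¹) * t⁻¹ * (t * (k * v0 * k⁻¹) * t⁻¹) := by group
      _ = t * (k * v0 * k⁻¹) * t⁻¹ * (t * (k * u0 * k⁻¹) * t⁻¹) := h
      _ = _ := by group
  exact mul_left_cancel (mul_right_cancel h3)

end Lr

end Cfsg.Agent.H743.AH.SixFacts
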