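import Cfsg.Agent.H743.AH.SixD
import Cfsg.Agent.H568.OwnCharTw
import Cfsg.Agent.S1070

/-!
# Products of two `p`-regular classes: `²E₆(q)` (helper743)
-/

set_option autoImplicit false
set_option linter.unusedSectionVars false

namespace Cfsg.Agent.H743.AH.SixRow

open Cfsg Cfsg.Lie CoxeterSystem Cfsg.Agent.ChevalleyStructure.CoxeterGeom Cfsg.Agent.Tits.Roots Cfsg.Agent.Tits.Core
  Cfsg.Agent.Tits.RootComb Cfsg.Agent.Nodes.Reps Cfsg.Agent.Nodes.BNOf
  Cfsg.Agent.Nodes.RGDTwE6 Cfsg.Agent.KFacts.TwESix.Comb Cfsg.Agent.KFacts.TwESix Cfsg.Agent.KFacts.RgdField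

/-- **`²E₆(q)`: no two `p`-regular classes whose product is a `p`-regular class.** -/
theorem notA_twE6 (K : Type) [Field K] [Fintype K] (p : ℕ) [CharP K p] (q : ℕ) (hq : IsPrimePow q)
    (hK : Fintype.card K = q ^ 2) : H27.AH.NotA p ↥(Lie.twistedE6 K q) := by
  have hpp : Fact p.Prime := ⟨CharP.char_is_prime K p⟩
  obtain ⟨φ, hφ, hqq⟩ := ChevalleyStructure.TwE6Basic.exists_frob hq hK
  have hsim : IsSimpleGroup ↥(twistedE6 K q) := (S1070.result hq hK).1
  set cs := CoxeterMatrix.F₄.toCoxeterSystem with hcs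
  set R := rgd cs hφ hqq p with hR
  have hgen := Nodes.RGDLib.rgd_gen_of_G1 R (G1_eq_top cs hφ hqq)
  have hq1 : 1 < q := hq.one_lt
  have c0 := H568.OwnCharTw.card_X cs hφ hqq hK hq1 p (isRoot_sr cs isCartan 0)
  have c2 := H568.OwnCharTw.card_X cs hφ hqq hK hq1 p (isRoot_sr cs isCartan 2)
  have c3 := H568.OwnCharTw.card_X cs hφ hqq hK hq1 p (isRoot_sr cs isCartan 3)
  rw [if_pos sr_norm.1, pow_one] at c0
  rw [if_neg (by rw [sr_norm.2.2.1]; norm_num)] at c2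
  rw [if_neg (by rw [sr_norm.2.2.2]; norm_num)] at c3
  refine SixD.notA_rgd R (fun a ha hl => Grp.lr_long cs hφ hqq p ha hl) hgen ?_ ?_ ?_
  · intro i t ht u hu hu1 htu v hv
    have C := Out.coordE hφ hqq i
    obtain ⟨a, rfl⟩ := (C.mem u).1 hu
    obtain ⟨b, rfl⟩ := (C.mem v).1 hv
    rw [C.act t ht] at htu
    have h1 := C.inj htu
    have ha : a ≠ 0 := by
      rintro rfl
      exact hu1 C.zero
    have h2 : Out.chE hφ hqq i t = 1 := mul_right_cancel₀ ha (by rw [h1, one_mul])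
    rw [C.act t ht, h2, one_mul]
  · rw [c0, c3]
    nlinarith
  · rw [c2, c0]

end Cfsg.Agent.H743.AH.SixRow
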