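import Cfsg.Agent.H743.AH.TwFC
import Cfsg.Agent.H743.AH.TwFA
import Cfsg.Agent.H148.Cls.Full

/-!
# S2451, row `²F₄(q)`, `q > 2`: no product of two classes is a class of `2`-elements (helper743)
-/

set_option autoImplicit false
set_option linter.unusedSectionVars false

namespace Cfsg.Agent.H743.AH.TwF

open Cfsg Cfsg.Agent.Tits.Core Cfsg.Agent.Tits.Core.Bldg Cfsg.Agent.Tits.OfBN Cfsg.Agent.FixBN
  Cfsg.Agent.Tits.OppRes Cfsg.Agent.H197.Cls Cfsg.Agent.LieExceptional.BNPairCore Cfsg.Lie Cfsg.Agent.H27.AH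
  Cfsg.Agent.H330.ClassProd

theorem notC_twF4 {K : Type} [Field K] [Fintype K] {m : ℕ} (hm : 1 ≤ m) (hK : Fintype.card K = 2 ^ (2 * m + 1)) :
    NotC 2 ↥(twistedF4 K (2 ^ m)) := by
  have hfact : Fact (Nat.Prime 2) := ⟨Nat.prime_two⟩
  obtain ⟨M, W, _, _, cs, C, _, _, _, Δ, S, h8, hth, hfaith, hdis⟩ := exists_dis hm hK
  intro a b c ha hb _ h hc
  have hC : Cox cs := inferInstance
  have hPE : PE 2 c := by
    obtain ⟨k, hk⟩ := hc
    exact ⟨k, by rw [← hk, pow_orderOf_eq_one]⟩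
  have hab : Good 2 a b := H148.Cls.AllConj.good h hPE
  have hne : ∀ x : ↥(twistedF4 K (2 ^ m)), x ≠ 1 → ∃ y : C, x • y ≠ y := by
    intro x hx
    by_contra hcon
    push Not at hcon
    exact hx (hfaith x hcon)
  have hord : orderOf (cs.simple 1 * cs.simple 0) = 8 := by
    rw [← h8, ← Cfsg.Agent.Tits.Generic.orderOf_eq cs 0 1]
    have e : cs.simple 1 * cs.simple 0 = (cs.simple 0 * cs.simple 1)⁻¹ := by
      rw [mul_inv_rev, cs.inv_simple, cs.inv_simple]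
    rw [e, orderOf_inv]
  exact H148.Cls.rank_two S hth hab (fun w hw => hdis a b hab w hw) h (i := 0) (j := 1) (by
    intro k; fin_cases k <;> simp) hord (by decide) (by norm_num) (hne a ha) (hne b hb)

/-- **(C) for the groups `²F₄(q)`, `q > 2`.** -/
theorem notC_iso2F4 {X : Type*} [Group X] (h : Lie.Iso2F4 X) : NotC 2 X := by
  obtain ⟨K, i1, i2, m, hm, hK, ⟨e⟩⟩ := h
  exact NotC.of_equiv e (notC_twF4 hm hK)

/-- The row `²F₄(q)`. -/
theorem row {p : ℕ} (G : Type*) [Group G] (hp : p = 2) (h : Lie.Iso2F4 G) : NotA p G ∧ NotC p G := by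
  subst hp
  exact ⟨notA_iso2F4 h, notC_iso2F4 h⟩

end Cfsg.Agent.H743.AH.TwF
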